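import Cfsg.Agent.Lib.Helper9.CharP
import Cfsg.Agent.Lib.Helper10.Coprime

set_option autoImplicit false

namespace Cfsg.Agent.Lib.Helper12.Balance

open Cfsg Pointwise

universe u

/-- Hall–Higman 1.2.3 for solvable groups with trivial `p'`-core -/
theorem hh_solvable (X : Type u) [Group X] [Finite X] [hs : Group.IsSolvable X] (p : ℕ)
    [Fact p.Prime] (hK : pPrimeCore p X = ⊥) :
    Subgroup.centralizer (pCore p X : Set X) ≤ pCore p X := by
  have h1 : generalizedFittingSubgroup X = pCore p X := by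
    rw [Cfsg.Agent.Lib.Helper9.gfitting_eq_pCore_iff]
    refine ⟨Cfsg.Agent.Lib.Helper9.layer_eq_bot_of_isSolvable X, ?_⟩
    intro q hq hqp
    haveI : Fact q.Prime := ⟨hq⟩
    have h2 : pCore q X ≤ pPrimeCore p X :=
      Cfsg.Agent.Lib.Helper9.le_pPrimeCore (pCore_normal q X)
        (Cfsg.Agent.Lib.Helper9.card_coprime_of_isPGroup_of_ne
          (Cfsg.Agent.Lib.Helper9.pCore_isPGroup q X) hqp)
    rw [hK] at h2
    exact eq_bot_iff.mpr h2
  have h3 := Cfsg.Agent.Lib.Helper9.centralizer_gfitting_le X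
  rw [h1] at h3
  exact h3

theorem eq_one_of_coprime_of_pow {X : Type*} [Group X] {p : ℕ} {x : X} (k : ℕ)
    (hx : x ^ (p ^ k) = 1) (hc : (orderOf x).Coprime p) : x = 1 := by
  have h1 : orderOf x ∣ p ^ k := orderOf_dvd_of_pow_eq_one hx
  have h2 : orderOf x = 1 := Nat.Coprime.eq_one_of_dvd (Nat.Coprime.pow_right k hc) h1
  exact orderOf_eq_one_iff.mp h2

/-- In a finite solvable group `X`, a `p'`-subgroup `D` of `C_X(y)` normalized by `C_X(y)`, `y` a
`p`-element, lies in `O_{p'}(X)`. -/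
theorem le_pPrimeCore_of_centralizer {X : Type u} [Group X] [Finite X] [hs : Group.IsSolvable X]
    {p : ℕ} [Fact p.Prime] (y : X) (hy : ∃ k : ℕ, orderOf y = p ^ k) (D : Subgroup X)
    (hDy : D ≤ Subgroup.centralizer ({y} : Set X)) (hDc : (Nat.card D).Coprime p)
    (hDn : Subgroup.centralizer ({y} : Set X) ≤ Subgroup.normalizer (D : Set X)) :
    D ≤ pPrimeCore p X := by
  obtain ⟨ky, hky⟩ := hy
  have hKc := Cfsg.Agent.Lib.Helper9.pPrimeCore_coprime p X
  have hKbar : pPrimeCore p (X ⧸ pPrimeCore p X) = ⊥ :=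
    Cfsg.Agent.Lib.Helper9.pPrimeCore_quotient_eq_bot p X
  have hHH := hh_solvable (X ⧸ pPrimeCore p X) p hKbar
  have hQp : IsPGroup p ↥(pCore p (X ⧸ pPrimeCore p X)) :=
    Cfsg.Agent.Lib.Helper9.pCore_isPGroup p _
  have hQn : (pCore p (X ⧸ pPrimeCore p X)).Normal := pCore_normal p _
  have hDord : ∀ d ∈ D, (orderOf d).Coprime p := fun d hd =>
    Nat.Coprime.coprime_dvd_left (Subgroup.orderOf_dvd_natCard D hd) hDc
  have hmkord : ∀ d ∈ D, (orderOf (QuotientGroup.mk' (pPrimeCore p X) d)).Coprime p := fun d hd =>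
    Nat.Coprime.coprime_dvd_left (orderOf_map_dvd _ d) (hDord d hd)
  have hcardY : Nat.card ↥(Subgroup.zpowers y) = p ^ ky := by rw [Nat.card_zpowers, hky]
  have hdisj : ∀ z ∈ Subgroup.zpowers y, z ∈ pPrimeCore p X → z = 1 := by
    intro z hz1 hz2
    have h1 : orderOf z ∣ p ^ ky := by
      rw [← hcardY]
      exact Subgroup.orderOf_dvd_natCard _ hz1
    exact eq_one_of_coprime_of_pow ky (orderOf_dvd_iff_pow_eq_one.mp h1)
      (Nat.Coprime.coprime_dvd_left (Subgroup.orderOf_dvd_natCard _ hz2) hKc)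
  intro d hd
  have hdy : y * d = d * y := (Subgroup.mem_centralizer_iff.mp (hDy hd)) y (Set.mem_singleton y)
  have hB : IsPGroup p ↥(Subgroup.zpowers (QuotientGroup.mk' (pPrimeCore p X) y)) := by
    have h1 : orderOf (QuotientGroup.mk' (pPrimeCore p X) y) ∣ p ^ ky := by
      rw [← hky]; exact orderOf_map_dvd _ y
    obtain ⟨j, _, hj⟩ := (Nat.dvd_prime_pow Fact.out).mp h1
    apply IsPGroup.of_card (n := j)
    rw [Nat.card_zpowers, hj]
  have hab : ∀ b ∈ Subgroup.zpowers (QuotientGroup.mk' (pPrimeCore p X) y),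
      QuotientGroup.mk' (pPrimeCore p X) d * b = b * QuotientGroup.mk' (pPrimeCore p X) d := by
    intro b hb
    obtain ⟨i, rfl⟩ := Subgroup.mem_zpowers_iff.mp hb
    have h1 : Commute (QuotientGroup.mk' (pPrimeCore p X) d) (QuotientGroup.mk' (pPrimeCore p X) y) := by
      show QuotientGroup.mk' (pPrimeCore p X) d * QuotientGroup.mk' (pPrimeCore p X) y =
        QuotientGroup.mk' (pPrimeCore p X) y * QuotientGroup.mk' (pPrimeCore p X) d
      rw [← map_mul, ← map_mul, hdy]
    exact (h1.zpow_right i).eq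
  have key := Cfsg.Agent.Lib.Helper9.thompson_AxB (hmkord d hd) hB hQp hab
    (by rw [Subgroup.normalizer_eq_top]; exact Subgroup.mem_top _)
    (by rw [Subgroup.normalizer_eq_top]; exact le_top)
    (by
      intro xb hxb hcomm
      obtain ⟨x, rfl⟩ := QuotientGroup.mk'_surjective (pPrimeCore p X) xb
      have hxy := hcomm _ (Subgroup.mem_zpowers (QuotientGroup.mk' (pPrimeCore p X) y))
      -- lift `x` to an element centralizing `y`
      have hx' : ∀ a ∈ Subgroup.zpowers y, x⁻¹ * a * x * a⁻¹ ∈ pPrimeCore p X := by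
        intro a ha
        obtain ⟨i, rfl⟩ := Subgroup.mem_zpowers_iff.mp ha
        rw [← QuotientGroup.eq_one_iff]
        have h1 : Commute (QuotientGroup.mk' (pPrimeCore p X) x)
            (QuotientGroup.mk' (pPrimeCore p X) y) := hxy.symm
        have h2 := (h1.zpow_right i).eq
        show QuotientGroup.mk' (pPrimeCore p X) (x⁻¹ * y ^ i * x * (y ^ i)⁻¹) = 1
        rw [map_mul, map_mul, map_mul, map_inv, map_inv, map_zpow, mul_assoc _ _ (QuotientGroup.mk' (pPrimeCore p X) x),
          ← h2]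
        group
      have hAD : Subgroup.zpowers y ≤ Subgroup.normalizer ((pPrimeCore p X : Subgroup X) : Set X) := by
        rw [Subgroup.normalizer_eq_top]; exact le_top
      have hcop : (Nat.card ↥(pPrimeCore p X)).Coprime (Nat.card ↥(Subgroup.zpowers y)) := by
        rw [hcardY]; exact Nat.Coprime.pow_right ky hKc
      have hsolv : Group.IsSolvable ↥(pPrimeCore p X) := inferInstance
      obtain ⟨k, hk, hconj⟩ := Cfsg.Agent.Lib.Helper10.Coprime.key_lemma (pPrimeCore p X)
        (Subgroup.zpowers y) hAD hcop (Or.inl hsolv) x hx'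
      have hmkk : QuotientGroup.mk' (pPrimeCore p X) k = 1 := (QuotientGroup.eq_one_iff k).mpr hk
      have hmkc : QuotientGroup.mk' (pPrimeCore p X) (x * k) = QuotientGroup.mk' (pPrimeCore p X) x := by
        rw [map_mul, hmkk, mul_one]
      -- `c = x * k` centralizes `y`
      have hcy : (x * k) * y * (x * k)⁻¹ * y⁻¹ = 1 := by
        apply hdisj
        · exact Subgroup.mul_mem _
            (Cfsg.Agent.Lib.Helper10.Coprime.conj_mem_of_smul_eq hconj (Subgroup.mem_zpowers y))
            (Subgroup.inv_mem _ (Subgroup.mem_zpowers y))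
        · rw [← QuotientGroup.eq_one_iff]
          show QuotientGroup.mk' (pPrimeCore p X) ((x * k) * y * (x * k)⁻¹ * y⁻¹) = 1
          rw [map_mul, map_mul, map_mul, map_inv, map_inv, hmkc, ← hxy]
          group
      have hcy' : y * (x * k) = (x * k) * y := by
        calc y * (x * k) = ((x * k) * y * (x * k)⁻¹ * y⁻¹)⁻¹ * ((x * k) * y) := by group
          _ = (x * k) * y := by rw [hcy]; group
      have hcC : x * k ∈ Subgroup.centralizer ({y} : Set X) := by
        rw [Subgroup.mem_centralizer_iff]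
        intro z hz
        rw [Set.mem_singleton_iff] at hz
        rw [hz]; exact hcy'
      have hcN := hDn hcC
      -- the commutator of d and c lies in D and maps into O_p(X/K)
      have h1 : d * (x * k) * d⁻¹ * (x * k)⁻¹ ∈ D := by
        have h2 : (x * k) * d⁻¹ * (x * k)⁻¹ ∈ D :=
          (Subgroup.mem_normalizer_iff.mp hcN d⁻¹).mp (D.inv_mem hd)
        have e : d * (x * k) * d⁻¹ * (x * k)⁻¹ = d * ((x * k) * d⁻¹ * (x * k)⁻¹) := by group
        rw [e]
        exact D.mul_mem hd h2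
      have e3 : QuotientGroup.mk' (pPrimeCore p X) (d * (x * k) * d⁻¹ * (x * k)⁻¹) =
          QuotientGroup.mk' (pPrimeCore p X) d * QuotientGroup.mk' (pPrimeCore p X) x *
            (QuotientGroup.mk' (pPrimeCore p X) d)⁻¹ * (QuotientGroup.mk' (pPrimeCore p X) x)⁻¹ := by
        rw [map_mul, map_mul, map_mul, map_inv, map_inv, hmkc]
      have h3 : QuotientGroup.mk' (pPrimeCore p X) (d * (x * k) * d⁻¹ * (x * k)⁻¹) ∈
          pCore p (X ⧸ pPrimeCore p X) := by
        rw [e3]
        exact Subgroup.mul_mem _ (hQn.conj_mem _ hxb _) (Subgroup.inv_mem _ hxb)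
      obtain ⟨j, hj⟩ := hQp ⟨_, h3⟩
      have h4 : QuotientGroup.mk' (pPrimeCore p X) (d * (x * k) * d⁻¹ * (x * k)⁻¹) = 1 :=
        eq_one_of_coprime_of_pow j (congrArg Subtype.val hj) (hmkord _ h1)
      rw [e3] at h4
      calc QuotientGroup.mk' (pPrimeCore p X) d * QuotientGroup.mk' (pPrimeCore p X) x
          = (QuotientGroup.mk' (pPrimeCore p X) d * QuotientGroup.mk' (pPrimeCore p X) x *
              (QuotientGroup.mk' (pPrimeCore p X) d)⁻¹ * (QuotientGroup.mk' (pPrimeCore p X) x)⁻¹) *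
              (QuotientGroup.mk' (pPrimeCore p X) x * QuotientGroup.mk' (pPrimeCore p X) d) := by group
        _ = QuotientGroup.mk' (pPrimeCore p X) x * QuotientGroup.mk' (pPrimeCore p X) d := by
          rw [h4, one_mul])
  have hdQ : QuotientGroup.mk' (pPrimeCore p X) d ∈ pCore p (X ⧸ pPrimeCore p X) :=
    hHH (Subgroup.mem_centralizer_iff.mpr (fun x hx => (key x hx).symm))
  obtain ⟨j, hj⟩ := hQp ⟨_, hdQ⟩
  have h5 : QuotientGroup.mk' (pPrimeCore p X) d = 1 :=
    eq_one_of_coprime_of_pow j (congrArg Subtype.val hj) (hmkord d hd)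
  exact (QuotientGroup.eq_one_iff d).mp h5

end Cfsg.Agent.Lib.Helper12.Balance
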