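import Mathlib
import Cfsg.Agent.Lib.Helper12.SylowBasic
import Cfsg.Agent.Lib.Helper12.FusionLift
import Cfsg.Agent.Lib.Helper12.Alperin

/-!
# The least centric-radical subgroup (helper12)

`CtlS P Q`: `N_G(Q)` controls strong fusion in `P`.  If some `W ≤ P` with `C_P(W) ≤ W` has
`CtlS P W`, then the largest `Q ≤ P` with `CtlS P Q` is centric, radical, and contained in every
centric-radical subgroup of `P`.
-/

set_option autoImplicit false

namespace Cfsg.Agent.Lib.Helper12.CentricRadical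

open Cfsg.Agent.Lib.Helper12.SylowBasic Cfsg.Agent.Lib.Helper12.FusionLift

variable {G : Type*} [Group G]

/-- `N_G(Q)` controls strong fusion in `P` -/
def CtlS (P Q : Subgroup G) : Prop :=
  ∀ A : Subgroup G, A ≤ P → ∀ g : G, (∀ a ∈ A, g * a * g⁻¹ ∈ P) →
    ∃ h ∈ Subgroup.normalizer (Q : Set G), ∃ c ∈ Subgroup.centralizer (A : Set G), g = h * c

theorem conj_mem_centralizer {R : Subgroup G} {n c : G}
    (hn : n ∈ Subgroup.normalizer (R : Set G)) (hc : c ∈ Subgroup.centralizer (R : Set G)) :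
    n * c * n⁻¹ ∈ Subgroup.centralizer (R : Set G) := by
  rw [Subgroup.mem_centralizer_iff] at hc ⊢
  intro r hr
  have h1 : n⁻¹ * r * n ∈ R := conj_inv_mem_of_mem_normalizer hn hr
  have h2 := hc _ h1
  calc r * (n * c * n⁻¹) = n * (n⁻¹ * r * n * c) * n⁻¹ := by group
    _ = n * (c * (n⁻¹ * r * n)) * n⁻¹ := by rw [h2]
    _ = n * c * n⁻¹ * r := by group

theorem map_conj_eq_of_forall {N X : Subgroup G} (h : ∀ n ∈ N, ∀ x ∈ X, n * x * n⁻¹ ∈ X) :
    ∀ n ∈ N, X.map (MulAut.conj n).toMonoidHom = X := by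
  intro n hn
  apply le_antisymm
  · rintro _ ⟨x, hx, rfl⟩
    exact h n hn x hx
  · intro x hx
    refine ⟨n⁻¹ * x * n, ?_, ?_⟩
    · have := h n⁻¹ (N.inv_mem hn) x hx
      simpa using this
    · show n * (n⁻¹ * x * n) * n⁻¹ = x
      group

theorem conj_mem_of_map_eq {X : Subgroup G} {n : G}
    (h : X.map (MulAut.conj n).toMonoidHom = X) {x : G} (hx : x ∈ X) : n * x * n⁻¹ ∈ X := by
  have h1 : n * x * n⁻¹ ∈ X.map (MulAut.conj n).toMonoidHom := ⟨x, hx, rfl⟩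
  rwa [h] at h1

theorem conj_cent {A : Subgroup G} {h c a : G} (hc : c ∈ Subgroup.centralizer (A : Set G))
    (ha : a ∈ A) : h * c * a * (h * c)⁻¹ = h * a * h⁻¹ := by
  rw [Subgroup.mem_centralizer_iff] at hc
  have h1 := hc a ha
  calc h * c * a * (h * c)⁻¹ = h * (c * a) * c⁻¹ * h⁻¹ := by group
    _ = h * (a * c) * c⁻¹ * h⁻¹ := by rw [h1]
    _ = h * a * h⁻¹ := by group

theorem ctlS_sup [Finite G] {P Q₁ Q₂ : Subgroup G} (h1 : CtlS P Q₁) (h2 : CtlS P Q₂)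
    (hQ₁ : Q₁ ≤ P) : CtlS P (Q₁ ⊔ Q₂) := by
  intro A hA g hg
  obtain ⟨h₁, hh₁, c₁, hc₁, rfl⟩ := h1 A hA g hg
  have hA1 : ∀ a ∈ A, h₁ * a * h₁⁻¹ ∈ P := by
    intro a ha
    have h3 := hg a ha
    rwa [conj_cent hc₁ ha] at h3
  have hsup : ∀ x ∈ A ⊔ Q₁, h₁ * x * h₁⁻¹ ∈ P := by
    have h3 : A ⊔ Q₁ ≤ P.comap (MulAut.conj h₁).toMonoidHom :=
      sup_le (fun a ha => hA1 a ha) (fun q hq => hQ₁ (conj_mem_of_mem_normalizer hh₁ hq))
    exact fun x hx => h3 hx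
  obtain ⟨h₂, hh₂, c₂, hc₂, rfl⟩ := h2 (A ⊔ Q₁) (sup_le hA hQ₁) h₁ hsup
  have hc₂A : c₂ ∈ Subgroup.centralizer (A : Set G) :=
    Subgroup.centralizer_le (SetLike.coe_subset_coe.mpr (le_sup_left : A ≤ A ⊔ Q₁)) hc₂
  have hc₂Q : c₂ ∈ Subgroup.centralizer (Q₁ : Set G) :=
    Subgroup.centralizer_le (SetLike.coe_subset_coe.mpr (le_sup_right : Q₁ ≤ A ⊔ Q₁)) hc₂
  have hh₂1 : h₂ ∈ Subgroup.normalizer (Q₁ : Set G) := by
    have h3 := Subgroup.mul_mem _ hh₁
      (Subgroup.inv_mem _ (Subgroup.centralizer_le_normalizer _ hc₂Q))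
    simpa using h3
  refine ⟨h₂, ?_, c₂ * c₁, Subgroup.mul_mem _ hc₂A hc₁, by group⟩
  apply Subgroup.mem_normalizer_fintype
  have h3 : Q₁ ⊔ Q₂ ≤ (Q₁ ⊔ Q₂).comap (MulAut.conj h₂).toMonoidHom :=
    sup_le (fun q hq => Subgroup.mem_sup_left (conj_mem_of_mem_normalizer hh₂1 hq))
      (fun q hq => Subgroup.mem_sup_right (conj_mem_of_mem_normalizer hh₂ hq))
  exact fun x hx => h3 hx

theorem exists_max_ctlS [Finite G] (P : Subgroup G) :
    ∃ Q : Subgroup G, Q ≤ P ∧ CtlS P Q ∧ ∀ Q' : Subgroup G, Q' ≤ P → CtlS P Q' → Q' ≤ Q := by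
  have hfin : Set.Finite {Q : Subgroup G | Q ≤ P ∧ CtlS P Q} := Set.toFinite _
  have hne : {Q : Subgroup G | Q ≤ P ∧ CtlS P Q}.Nonempty := by
    refine ⟨⊥, bot_le, ?_⟩
    intro A hA g hg
    refine ⟨g, ?_, 1, Subgroup.one_mem _, by simp⟩
    apply Subgroup.mem_normalizer_fintype
    intro n hn
    have hn1 : n = 1 := hn
    rw [hn1]
    show g * 1 * g⁻¹ ∈ (⊥ : Subgroup G)
    simp
  obtain ⟨Q, hQ⟩ := hfin.exists_maximal hne
  refine ⟨Q, hQ.1.1, hQ.1.2, fun Q' hQ'P hQ' => ?_⟩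
  have h1 : Q ⊔ Q' ∈ {Q : Subgroup G | Q ≤ P ∧ CtlS P Q} :=
    ⟨sup_le hQ.1.1 hQ'P, ctlS_sup hQ.1.2 hQ' hQ.1.1⟩
  have h2 := hQ.2 h1 le_sup_left
  exact le_sup_right.trans h2

theorem centric_sylow [Finite G] {p : ℕ} [Fact p.Prime] (P : Sylow p G) (Q : Subgroup G)
    (hQP : Q ≤ (P : Subgroup G))
    (hPN : (P : Subgroup G) ≤ Subgroup.normalizer (Q : Set G))
    (hCQ : ∀ x ∈ (P : Subgroup G), x ∈ Subgroup.centralizer (Q : Set G) → x ∈ Q) :
    ∃ R : Sylow p ↥(Subgroup.centralizer (Q : Set G)),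
      (R : Subgroup ↥(Subgroup.centralizer (Q : Set G))).map
        (Subgroup.centralizer (Q : Set G)).subtype = Q ⊓ Subgroup.centralizer (Q : Set G) := by
  have key : ∀ T : Subgroup G, T ≤ Subgroup.centralizer (Q : Set G) → IsPGroup p T →
      T ≤ Q ⊓ Subgroup.centralizer (Q : Set G) := by
    intro T hTC hT
    obtain ⟨c, hcN, hc⟩ := exists_conj_le_of_le P _ hPN T
      (hTC.trans (Subgroup.centralizer_le_normalizer _)) hT
    intro t ht
    have h1 : c * t * c⁻¹ ∈ (P : Subgroup G) := hc t ht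
    have h2 : c * t * c⁻¹ ∈ Subgroup.centralizer (Q : Set G) := conj_mem_centralizer hcN (hTC ht)
    have h3 : c * t * c⁻¹ ∈ Q := hCQ _ h1 h2
    have h4 : c⁻¹ * (c * t * c⁻¹) * c ∈ Q := conj_inv_mem_of_mem_normalizer hcN h3
    have e : c⁻¹ * (c * t * c⁻¹) * c = t := by group
    rw [e] at h4
    exact ⟨h4, hTC ht⟩
  have hZp : IsPGroup p ((Q ⊓ Subgroup.centralizer (Q : Set G)).subgroupOf
      (Subgroup.centralizer (Q : Set G))) :=
    (P.isPGroup'.to_le (inf_le_left.trans hQP)).comap_subtype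
  refine ⟨⟨(Q ⊓ Subgroup.centralizer (Q : Set G)).subgroupOf (Subgroup.centralizer (Q : Set G)),
    hZp, ?_⟩, ?_⟩
  · intro T hT hle
    apply le_antisymm _ hle
    intro t ht
    rw [Subgroup.mem_subgroupOf]
    exact key (T.map (Subgroup.centralizer (Q : Set G)).subtype) (Subgroup.map_subtype_le _)
      (hT.map _) ⟨t, ht, rfl⟩
  · show ((Q ⊓ Subgroup.centralizer (Q : Set G)).subgroupOf
      (Subgroup.centralizer (Q : Set G))).map (Subgroup.centralizer (Q : Set G)).subtype = _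
    rw [Subgroup.subgroupOf_map_subtype]
    exact inf_eq_left.mpr inf_le_right

theorem eq_one_of_pow_coprime {p : ℕ} [Fact p.Prime] {x : G} {k m : ℕ} (hm : ¬ p ∣ m)
    (h1 : x ^ p ^ k = 1) (h2 : x ^ m = 1) : x = 1 := by
  have hp : p.Prime := Fact.out
  have hcop : Nat.Coprime (p ^ k) m :=
    Nat.Coprime.pow_left k ((Nat.Prime.coprime_iff_not_dvd hp).mpr hm)
  have h3 : orderOf x ∣ Nat.gcd (p ^ k) m :=
    Nat.dvd_gcd (orderOf_dvd_of_pow_eq_one h1) (orderOf_dvd_of_pow_eq_one h2)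
  rw [hcop.gcd_eq_one, Nat.dvd_one] at h3
  exact orderOf_eq_one_iff.mp h3

/-- a central Sylow `p`-subgroup has a normal complement, the set of `p'`-elements -/
theorem exists_pcompl [Finite G] {p : ℕ} [Fact p.Prime] (C : Subgroup G) (R : Sylow p ↥C)
    (hcent : ∀ z ∈ (R : Subgroup ↥C), ∀ c : ↥C, z * c = c * z) :
    ∃ (O : Subgroup G) (m : ℕ), ¬ p ∣ m ∧ O ≤ C ∧ (∀ o ∈ O, o ^ m = 1) ∧
      (∀ c ∈ C, c ^ m = 1 → c ∈ O) ∧
      ∀ c ∈ C, ∃ z ∈ (R : Subgroup ↥C).map C.subtype, ∃ o ∈ O, c = z * o := by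
  haveI hRn : (R : Subgroup ↥C).Normal := ⟨fun z hz c => by
    have h1 := hcent z hz c⁻¹
    have e : c * z * c⁻¹ = z := by rw [mul_assoc, h1, ← mul_assoc, mul_inv_cancel, one_mul]
    rw [e]; exact hz⟩
  obtain ⟨H, hH⟩ := Subgroup.exists_right_complement'_of_coprime (N := (R : Subgroup ↥C))
    R.card_coprime_index
  have hm : ¬ p ∣ Nat.card H := by
    have h1 : (R : Subgroup ↥C).index = Nat.card H := hH.symm.index_eq_card
    rw [← h1]; exact R.not_dvd_index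
  have hHpow : ∀ h ∈ H, h ^ Nat.card H = 1 := by
    intro h hh
    have h1 : (⟨h, hh⟩ : ↥H) ^ Nat.card H = 1 := pow_card_eq_one'
    have h2 : ((⟨h, hh⟩ : ↥H) ^ Nat.card H : ↥H).1 = 1 := by rw [h1]; rfl
    exact h2
  refine ⟨H.map C.subtype, Nat.card H, hm, Subgroup.map_subtype_le _, ?_, ?_, ?_⟩
  · rintro _ ⟨o, ho, rfl⟩
    rw [← map_pow, hHpow o ho, map_one]
  · intro c hc hcm
    obtain ⟨⟨⟨z, hz⟩, ⟨h, hh⟩⟩, hzh⟩ := hH.2 (⟨c, hc⟩ : ↥C)
    have hzh' : z * h = ⟨c, hc⟩ := hzh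
    have hcomm : Commute z h := hcent z hz h
    have h1 : (z * h) ^ Nat.card H = z ^ Nat.card H * h ^ Nat.card H := hcomm.mul_pow _
    have h3 : (⟨c, hc⟩ : ↥C) ^ Nat.card H = 1 := Subtype.ext (by simpa using hcm)
    rw [hzh', h3, hHpow h hh, mul_one] at h1
    have hz1 : z = 1 := by
      obtain ⟨k, hk⟩ := R.isPGroup' ⟨z, hz⟩
      have hk' : z ^ p ^ k = 1 := by
        have h4 := congrArg Subtype.val hk
        simpa using h4
      exact eq_one_of_pow_coprime hm hk' h1.symm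
    rw [hz1, one_mul] at hzh'
    refine ⟨h, hh, ?_⟩
    rw [hzh']
    rfl
  · intro c hc
    obtain ⟨⟨⟨z, hz⟩, ⟨h, hh⟩⟩, hzh⟩ := hH.2 (⟨c, hc⟩ : ↥C)
    refine ⟨z, ⟨z, hz, rfl⟩, h, ⟨h, hh, rfl⟩, ?_⟩
    have h1 := congrArg Subtype.val hzh
    simpa using h1.symm

theorem le_inf_sup_of_relIndex [Finite G] {p : ℕ} [Fact p.Prime] (P : Sylow p G)
    (N X K : Subgroup G) (hPN : (P : Subgroup G) ≤ N) (hXN : X ≤ N)
    (hXn : ∀ n ∈ N, ∀ x ∈ X, n * x * n⁻¹ ∈ X) (hKX : K ≤ X)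
    (hKn : ∀ n ∈ N, ∀ x ∈ K, n * x * n⁻¹ ∈ K)
    (hidx : ∃ k : ℕ, K.relIndex X = p ^ k) : X ≤ (X ⊓ (P : Subgroup G)) ⊔ K := by
  have hp : p.Prime := Fact.out
  haveI hKn' : (K.subgroupOf X).Normal := by
    apply Subgroup.normal_subgroupOf_of_le_normalizer
    intro x hx
    exact Subgroup.mem_normalizer_fintype (fun k hk => hKn x (hXN hx) k hk)
  obtain ⟨S⟩ : Nonempty (Sylow p ↥X) := inferInstance
  have htop : (S : Subgroup ↥X) ⊔ K.subgroupOf X = ⊤ := by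
    rw [← Subgroup.index_eq_one]
    obtain ⟨k, hk⟩ := hidx
    have h1 : ((S : Subgroup ↥X) ⊔ K.subgroupOf X).index ∣ p ^ k := by
      rw [← hk]; exact Subgroup.index_dvd_of_le le_sup_right
    have h2 : ((S : Subgroup ↥X) ⊔ K.subgroupOf X).index ∣ (S : Subgroup ↥X).index :=
      Subgroup.index_dvd_of_le le_sup_left
    obtain ⟨j, -, hj⟩ := (Nat.dvd_prime_pow hp).mp h1
    rcases Nat.eq_zero_or_pos j with rfl | hjpos
    · simpa using hj
    · exfalso
      apply S.not_dvd_index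
      refine dvd_trans ?_ h2
      rw [hj]; exact dvd_pow_self p hjpos.ne'
  obtain ⟨S', hS'⟩ : ∃ S' : Subgroup G, S' = (S : Subgroup ↥X).map X.subtype := ⟨_, rfl⟩
  have hS'p : IsPGroup p S' := by rw [hS']; exact S.isPGroup'.map _
  have hS'X : S' ≤ X := by rw [hS']; exact Subgroup.map_subtype_le _
  obtain ⟨c, hcN, hc⟩ := exists_conj_le_of_le P N hPN S' (hS'X.trans hXN) hS'p
  have hle : S' ⊔ K ≤ ((X ⊓ (P : Subgroup G)) ⊔ K).comap (MulAut.conj c).toMonoidHom :=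
    sup_le (fun s hs => Subgroup.mem_sup_left ⟨hXn c hcN s (hS'X hs), hc s hs⟩)
      (fun k hk => Subgroup.mem_sup_right (hKn c hcN k hk))
  intro x hx
  have hx' : c⁻¹ * x * c⁻¹⁻¹ ∈ X := hXn c⁻¹ (N.inv_mem hcN) x hx
  have h3 : (⟨c⁻¹ * x * c⁻¹⁻¹, hx'⟩ : ↥X) ∈ (S : Subgroup ↥X) ⊔ K.subgroupOf X := by
    rw [htop]; trivial
  have h4 : c⁻¹ * x * c⁻¹⁻¹ ∈ S' ⊔ K := by
    have h5 : X.subtype ⟨c⁻¹ * x * c⁻¹⁻¹, hx'⟩ ∈
        ((S : Subgroup ↥X) ⊔ K.subgroupOf X).map X.subtype := Subgroup.mem_map_of_mem _ h3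
    rw [Subgroup.map_sup, ← hS'] at h5
    exact (sup_le_sup_left (by rw [Subgroup.subgroupOf_map_subtype]; exact inf_le_left) S') h5
  have h7 : c * (c⁻¹ * x * c⁻¹⁻¹) * c⁻¹ ∈ (X ⊓ (P : Subgroup G)) ⊔ K := hle h4
  have e : c * (c⁻¹ * x * c⁻¹⁻¹) * c⁻¹ = x := by group
  rwa [e] at h7

theorem exists_conj_mem_of_le_sup [Finite G] {p : ℕ} [Fact p.Prime] (P : Sylow p G)
    (O T : Subgroup G) (hPO : (P : Subgroup G) ≤ Subgroup.normalizer (O : Set G))
    (hT : IsPGroup p T) (hTO : T ≤ (P : Subgroup G) ⊔ O) :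
    ∃ o ∈ O, ∀ t ∈ T, o * t * o⁻¹ ∈ (P : Subgroup G) := by
  obtain ⟨c, hc, hcT⟩ := exists_conj_le_of_le P ((P : Subgroup G) ⊔ O) le_sup_left T hTO hT
  obtain ⟨a, ha, b, hb, rfl⟩ := mem_sup_of_le_normalizer hPO hc
  refine ⟨b, hb, fun t ht => ?_⟩
  have h1 := hcT t ht
  have h2 : a⁻¹ * (a * b * t * (a * b)⁻¹) * a ∈ (P : Subgroup G) :=
    Subgroup.mul_mem _ (Subgroup.mul_mem _ (Subgroup.inv_mem _ ha) h1) ha
  have e : a⁻¹ * (a * b * t * (a * b)⁻¹) * a = b * t * b⁻¹ := by group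
  rwa [e] at h2

theorem radical_of_max [Finite G] {p : ℕ} [Fact p.Prime] (P : Sylow p G) (Q : Subgroup G)
    (hQP : Q ≤ (P : Subgroup G)) (hQ : CtlS (P : Subgroup G) Q)
    (hmax : ∀ Q' : Subgroup G, Q' ≤ (P : Subgroup G) → CtlS (P : Subgroup G) Q' → Q' ≤ Q)
    (hPN : (P : Subgroup G) ≤ Subgroup.normalizer (Q : Set G))
    (hCQ : ∀ x ∈ (P : Subgroup G), x ∈ Subgroup.centralizer (Q : Set G) → x ∈ Q)
    (X : Subgroup G) (hXN : X ≤ Subgroup.normalizer (Q : Set G))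
    (hXn : ∀ n ∈ Subgroup.normalizer (Q : Set G), ∀ x ∈ X, n * x * n⁻¹ ∈ X)
    (hKX : Q ⊔ Subgroup.centralizer (Q : Set G) ≤ X)
    (hidx : ∃ k : ℕ, (Q ⊔ Subgroup.centralizer (Q : Set G)).relIndex X = p ^ k) :
    X = Q ⊔ Subgroup.centralizer (Q : Set G) := by
  obtain ⟨R, hR⟩ := centric_sylow P Q hQP hPN hCQ
  have hcent : ∀ z ∈ (R : Subgroup ↥(Subgroup.centralizer (Q : Set G))),
      ∀ c : ↥(Subgroup.centralizer (Q : Set G)), z * c = c * z := by
    intro z hz c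
    have hzQ : (z : G) ∈ Q := by
      have h1 : (z : G) ∈ (R : Subgroup _).map (Subgroup.centralizer (Q : Set G)).subtype :=
        ⟨z, hz, rfl⟩
      rw [hR] at h1; exact h1.1
    apply Subtype.ext
    exact Subgroup.mem_centralizer_iff.mp c.2 (z : G) hzQ
  obtain ⟨O, m, hm, hOC, hOm, hOmem, hdec⟩ := exists_pcompl _ R hcent
  have hOn : ∀ n ∈ Subgroup.normalizer (Q : Set G), ∀ o ∈ O, n * o * n⁻¹ ∈ O := by
    intro n hn o ho
    apply hOmem _ (conj_mem_centralizer hn (hOC ho))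
    rw [conj_pow, hOm o ho]
    group
  have hPO : (P : Subgroup G) ≤ Subgroup.normalizer (O : Set G) := fun x hx =>
    Subgroup.mem_normalizer_fintype (fun o ho => hOn x (hPN hx) o ho)
  have hOP : ∀ o ∈ O, o ∈ (P : Subgroup G) → o = 1 := by
    intro o ho hoP
    obtain ⟨k, hk⟩ := P.isPGroup' ⟨o, hoP⟩
    have hk' : o ^ p ^ k = 1 := by
      have h4 := congrArg Subtype.val hk
      simpa using h4
    exact eq_one_of_pow_coprime hm hk' (hOm o ho)
  have hKn : ∀ n ∈ Subgroup.normalizer (Q : Set G),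
      ∀ x ∈ Q ⊔ Subgroup.centralizer (Q : Set G),
        n * x * n⁻¹ ∈ Q ⊔ Subgroup.centralizer (Q : Set G) := by
    intro n hn
    have h3 : Q ⊔ Subgroup.centralizer (Q : Set G) ≤
        (Q ⊔ Subgroup.centralizer (Q : Set G)).comap (MulAut.conj n).toMonoidHom :=
      sup_le (fun q hq => Subgroup.mem_sup_left (conj_mem_of_mem_normalizer hn hq))
        (fun c hc => Subgroup.mem_sup_right (conj_mem_centralizer hn hc))
    exact fun x hx => h3 hx
  have hX1 : X ≤ (X ⊓ (P : Subgroup G)) ⊔ (Q ⊔ Subgroup.centralizer (Q : Set G)) :=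
    le_inf_sup_of_relIndex P _ X _ hPN hXN hXn hKX hKn hidx
  have hCPO : Subgroup.centralizer (Q : Set G) ≤ (P : Subgroup G) ⊔ O := by
    intro c hc
    obtain ⟨z, hz, o, ho, rfl⟩ := hdec c hc
    rw [hR] at hz
    exact Subgroup.mul_mem _ (Subgroup.mem_sup_left (hQP hz.1)) (Subgroup.mem_sup_right ho)
  have hXPO : X ≤ (P : Subgroup G) ⊔ O :=
    hX1.trans (sup_le (inf_le_right.trans le_sup_left) (sup_le (hQP.trans le_sup_left) hCPO))
  have hQ₂ : CtlS (P : Subgroup G) (X ⊓ (P : Subgroup G)) := by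
    intro A hA g hg
    obtain ⟨h, hh, c, hc, rfl⟩ := hQ A hA g hg
    have hA1 : ∀ a ∈ A, h * a * h⁻¹ ∈ (P : Subgroup G) := by
      intro a ha
      have h3 := hg a ha
      rwa [conj_cent hc ha] at h3
    obtain ⟨T, hT⟩ : ∃ T : Subgroup G,
        T = ((X ⊓ (P : Subgroup G)) ⊔ A).map (MulAut.conj h).toMonoidHom := ⟨_, rfl⟩
    have hTp : IsPGroup p T := by
      rw [hT]; exact (P.isPGroup'.to_le (sup_le inf_le_right hA)).map _
    have hTO : T ≤ (P : Subgroup G) ⊔ O := by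
      rw [hT, Subgroup.map_le_iff_le_comap]
      exact sup_le (fun q hq => hXPO (hXn h hh q hq.1))
        (fun a ha => Subgroup.mem_sup_left (hA1 a ha))
    obtain ⟨o, ho, hoT⟩ := exists_conj_mem_of_le_sup P O T hPO hTp hTO
    have hoT' : ∀ x ∈ (X ⊓ (P : Subgroup G)) ⊔ A,
        o * (h * x * h⁻¹) * o⁻¹ ∈ (P : Subgroup G) := by
      intro x hx
      apply hoT
      rw [hT]
      exact ⟨x, hx, rfl⟩
    have hcomm : ∀ a ∈ A, o * (h * a * h⁻¹) = (h * a * h⁻¹) * o := by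
      intro a ha
      have h1 := hoT' a (Subgroup.mem_sup_right ha)
      have hb := hA1 a ha
      have h2 : o * (h * a * h⁻¹) * o⁻¹ * (h * a * h⁻¹)⁻¹ ∈ (P : Subgroup G) :=
        Subgroup.mul_mem _ h1 (Subgroup.inv_mem _ hb)
      have h3 : o * (h * a * h⁻¹) * o⁻¹ * (h * a * h⁻¹)⁻¹ ∈ O := by
        have h4 : (h * a * h⁻¹) * o⁻¹ * (h * a * h⁻¹)⁻¹ ∈ O :=
          hOn _ (hPN hb) _ (O.inv_mem ho)
        have h5 := O.mul_mem ho h4
        have e : o * ((h * a * h⁻¹) * o⁻¹ * (h * a * h⁻¹)⁻¹) =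
            o * (h * a * h⁻¹) * o⁻¹ * (h * a * h⁻¹)⁻¹ := by group
        rwa [e] at h5
      have h5 := hOP _ h3 h2
      have e : o * (h * a * h⁻¹) =
          (o * (h * a * h⁻¹) * o⁻¹ * (h * a * h⁻¹)⁻¹) * ((h * a * h⁻¹) * o) := by group
      rw [e, h5, one_mul]
    refine ⟨o * h, ?_, h⁻¹ * o⁻¹ * h * c, ?_, by group⟩
    · apply Subgroup.mem_normalizer_fintype
      intro q hq
      have hq' : q ∈ X ⊓ (P : Subgroup G) := hq
      have h1 := hoT' q (Subgroup.mem_sup_left hq')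
      have h2 : o * (h * q * h⁻¹) * o⁻¹ ∈ X := by
        have hoX : o ∈ X := hKX (Subgroup.mem_sup_right (hOC ho))
        exact X.mul_mem (X.mul_mem hoX (hXn h hh q hq'.1)) (X.inv_mem hoX)
      have e : o * h * q * (o * h)⁻¹ = o * (h * q * h⁻¹) * o⁻¹ := by group
      rw [e]
      exact ⟨h2, h1⟩
    · apply Subgroup.mul_mem _ _ hc
      rw [Subgroup.mem_centralizer_iff]
      intro a ha
      have h1 := hcomm a ha
      calc a * (h⁻¹ * o⁻¹ * h) = h⁻¹ * o⁻¹ * (o * (h * a * h⁻¹)) * o⁻¹ * h := by group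
        _ = h⁻¹ * o⁻¹ * ((h * a * h⁻¹) * o) * o⁻¹ * h := by rw [h1]
        _ = h⁻¹ * o⁻¹ * h * a := by group
  have hle := hmax _ inf_le_right hQ₂
  exact le_antisymm (hX1.trans (sup_le (hle.trans le_sup_left) le_rfl)) hKX

theorem le_of_cr [Finite G] {p : ℕ} [Fact p.Prime] (P : Sylow p G) (Q : Subgroup G)
    (hQP : Q ≤ (P : Subgroup G)) (hQ : CtlS (P : Subgroup G) Q)
    (hPN : (P : Subgroup G) ≤ Subgroup.normalizer (Q : Set G))
    (R : Subgroup G) (hRP : R ≤ (P : Subgroup G))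
    (hRc : ∃ S : Sylow p ↥(Subgroup.centralizer (R : Set G)),
      (S : Subgroup ↥(Subgroup.centralizer (R : Set G))).map
        (Subgroup.centralizer (R : Set G)).subtype = R ⊓ Subgroup.centralizer (R : Set G))
    (hRr : ∀ X : Subgroup G, X ≤ Subgroup.normalizer (R : Set G) →
        (∀ n ∈ Subgroup.normalizer (R : Set G), X.map (MulAut.conj n).toMonoidHom = X) →
        R ⊔ Subgroup.centralizer (R : Set G) ≤ X →
        (∃ k : ℕ, (R ⊔ Subgroup.centralizer (R : Set G)).relIndex X = p ^ k) →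
        X = R ⊔ Subgroup.centralizer (R : Set G)) : Q ≤ R := by
  have hp : p.Prime := Fact.out
  have hi : ∀ x ∈ (P : Subgroup G), x ∈ Subgroup.centralizer (R : Set G) → x ∈ R := by
    obtain ⟨S, hS⟩ := hRc
    intro x hxP hxC
    have hT : IsPGroup p (((P : Subgroup G) ⊓ Subgroup.centralizer (R : Set G)).subgroupOf
        (Subgroup.centralizer (R : Set G))) := (P.isPGroup'.to_le inf_le_left).comap_subtype
    have hle : (S : Subgroup ↥(Subgroup.centralizer (R : Set G))) ≤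
        ((P : Subgroup G) ⊓ Subgroup.centralizer (R : Set G)).subgroupOf
          (Subgroup.centralizer (R : Set G)) := by
      intro s hs
      rw [Subgroup.mem_subgroupOf]
      have h1 : (s : G) ∈ (S : Subgroup ↥(Subgroup.centralizer (R : Set G))).map
          (Subgroup.centralizer (R : Set G)).subtype := ⟨s, hs, rfl⟩
      rw [hS] at h1
      exact ⟨hRP h1.1, h1.2⟩
    have heq := S.is_maximal' hT hle
    have hx : (⟨x, hxC⟩ : ↥(Subgroup.centralizer (R : Set G))) ∈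
        (S : Subgroup ↥(Subgroup.centralizer (R : Set G))) := by
      rw [← heq, Subgroup.mem_subgroupOf]; exact ⟨hxP, hxC⟩
    have h2 : x ∈ (S : Subgroup ↥(Subgroup.centralizer (R : Set G))).map
        (Subgroup.centralizer (R : Set G)).subtype := ⟨_, hx, rfl⟩
    rw [hS] at h2
    exact h2.1
  have hKN : R ⊔ Subgroup.centralizer (R : Set G) ≤ Subgroup.normalizer (R : Set G) :=
    sup_le Subgroup.le_normalizer (Subgroup.centralizer_le_normalizer _)
  have hHN : Q ⊓ Subgroup.normalizer (R : Set G) ≤ Subgroup.normalizer (R : Set G) := inf_le_right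
  have hKn : ∀ n ∈ Subgroup.normalizer (R : Set G),
      ∀ x ∈ R ⊔ Subgroup.centralizer (R : Set G),
        n * x * n⁻¹ ∈ R ⊔ Subgroup.centralizer (R : Set G) := by
    intro n hn
    have h3 : R ⊔ Subgroup.centralizer (R : Set G) ≤
        (R ⊔ Subgroup.centralizer (R : Set G)).comap (MulAut.conj n).toMonoidHom :=
      sup_le (fun q hq => Subgroup.mem_sup_left (conj_mem_of_mem_normalizer hn hq))
        (fun c hc => Subgroup.mem_sup_right (conj_mem_centralizer hn hc))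
    exact fun x hx => h3 hx
  have hXn : ∀ n ∈ Subgroup.normalizer (R : Set G),
      ∀ x ∈ (Q ⊓ Subgroup.normalizer (R : Set G)) ⊔ (R ⊔ Subgroup.centralizer (R : Set G)),
        n * x * n⁻¹ ∈
          (Q ⊓ Subgroup.normalizer (R : Set G)) ⊔ (R ⊔ Subgroup.centralizer (R : Set G)) := by
    intro n hn
    have h3 : (Q ⊓ Subgroup.normalizer (R : Set G)) ⊔ (R ⊔ Subgroup.centralizer (R : Set G)) ≤
        ((Q ⊓ Subgroup.normalizer (R : Set G)) ⊔
          (R ⊔ Subgroup.centralizer (R : Set G))).comap (MulAut.conj n).toMonoidHom := by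
      refine sup_le ?_ (fun k hk => Subgroup.mem_sup_right (hKn n hn k hk))
      intro x hx
      obtain ⟨h, hh, c, hc, rfl⟩ := hQ R hRP n
        (fun r hr => hRP (conj_mem_of_mem_normalizer hn hr))
      have hhR : h ∈ Subgroup.normalizer (R : Set G) := by
        have h4 := Subgroup.mul_mem _ hn
          (Subgroup.inv_mem _ (Subgroup.centralizer_le_normalizer _ hc))
        simpa using h4
      show h * c * x * (h * c)⁻¹ ∈
        (Q ⊓ Subgroup.normalizer (R : Set G)) ⊔ (R ⊔ Subgroup.centralizer (R : Set G))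
      have e : h * c * x * (h * c)⁻¹ =
          (h * x * h⁻¹) * (h * ((x⁻¹ * c * x⁻¹⁻¹) * c⁻¹) * h⁻¹) := by group
      rw [e]
      refine Subgroup.mul_mem _ (Subgroup.mem_sup_left ?_)
        (Subgroup.mem_sup_right (Subgroup.mem_sup_right ?_))
      · exact ⟨conj_mem_of_mem_normalizer hh hx.1,
          Subgroup.mul_mem _ (Subgroup.mul_mem _ hhR hx.2) (Subgroup.inv_mem _ hhR)⟩
      · apply conj_mem_centralizer hhR
        exact Subgroup.mul_mem _ (conj_mem_centralizer (Subgroup.inv_mem _ hx.2) hc)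
          (Subgroup.inv_mem _ hc)
    exact fun x hx => h3 hx
  have hidx : ∃ k : ℕ, (R ⊔ Subgroup.centralizer (R : Set G)).relIndex
      ((Q ⊓ Subgroup.normalizer (R : Set G)) ⊔ (R ⊔ Subgroup.centralizer (R : Set G))) = p ^ k := by
    obtain ⟨H, hH⟩ : ∃ H : Subgroup G, H = Q ⊓ Subgroup.normalizer (R : Set G) := ⟨_, rfl⟩
    obtain ⟨K, hK⟩ : ∃ K : Subgroup G, K = R ⊔ Subgroup.centralizer (R : Set G) := ⟨_, rfl⟩
    rw [← hH, ← hK]
    have hHp : IsPGroup p H := by rw [hH]; exact P.isPGroup'.to_le (inf_le_left.trans hQP)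
    haveI hKn' : (K.subgroupOf (H ⊔ K)).Normal := by
      apply Subgroup.normal_subgroupOf_of_le_normalizer
      intro x hx
      have hxN : x ∈ Subgroup.normalizer (R : Set G) := by
        have h5 : H ⊔ K ≤ Subgroup.normalizer (R : Set G) := by
          rw [hH, hK]; exact sup_le hHN hKN
        exact h5 hx
      apply Subgroup.mem_normalizer_fintype
      intro k hk
      have hk' : k ∈ K := hk
      rw [hK] at hk' ⊢
      exact hKn x hxN k hk'
    have htop : H.subgroupOf (H ⊔ K) ⊔ K.subgroupOf (H ⊔ K) = ⊤ := by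
      rw [← Subgroup.subgroupOf_sup le_sup_left le_sup_right, Subgroup.subgroupOf_self]
    have h1 : K.relIndex (H ⊔ K) = (K.subgroupOf (H ⊔ K)).relIndex (H.subgroupOf (H ⊔ K)) := by
      have h5 := Subgroup.relIndex_sup_right (H.subgroupOf (H ⊔ K)) (K.subgroupOf (H ⊔ K))
      rw [htop, Subgroup.relIndex_top_right] at h5
      exact h5
    obtain ⟨n, hn⟩ := IsPGroup.iff_card.mp (hHp.comap_subtype (K := H ⊔ K))
    have h2 : K.relIndex (H ⊔ K) ∣ p ^ n := by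
      rw [h1, ← hn]; exact Subgroup.relIndex_dvd_card _ _
    obtain ⟨k, -, hk⟩ := (Nat.dvd_prime_pow hp).mp h2
    exact ⟨k, hk⟩
  have hXeq := hRr _ (sup_le hHN hKN) (map_conj_eq_of_forall hXn) le_sup_right hidx
  have hRC : R ≤ Subgroup.normalizer ((Subgroup.centralizer (R : Set G) : Subgroup G) : Set G) :=
    fun r hr => Subgroup.mem_normalizer_fintype
      (fun c hc => conj_mem_centralizer (Subgroup.le_normalizer hr) hc)
  have hNQ : ∀ x ∈ Q, x ∈ Subgroup.normalizer (R : Set G) → x ∈ R := by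
    intro x hxQ hxN
    have h1 : x ∈ (Q ⊓ Subgroup.normalizer (R : Set G)) ⊔
        (R ⊔ Subgroup.centralizer (R : Set G)) := Subgroup.mem_sup_left ⟨hxQ, hxN⟩
    rw [hXeq] at h1
    obtain ⟨r, hr, c, hc, rfl⟩ := mem_sup_of_le_normalizer hRC h1
    have hcP : c ∈ (P : Subgroup G) := by
      have h2 := Subgroup.mul_mem _ (Subgroup.inv_mem _ (hRP hr)) (hQP hxQ)
      simpa using h2
    exact R.mul_mem hr (hi c hcP hc)
  by_contra hQR
  have hne : R ≠ R ⊔ Q := fun h => hQR (by rw [h]; exact le_sup_right)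
  have hlt := Cfsg.Agent.Lib.Helper12.Alperin.card_lt_card_normalizer (p := p) (S := R ⊔ Q)
    (B := R) (P.isPGroup'.to_le (sup_le hRP hQP)) le_sup_left hne
  have hle : (R ⊔ Q) ⊓ Subgroup.normalizer (R : Set G) ≤ R := by
    rintro t ⟨ht, htN⟩
    obtain ⟨r, hr, q, hq, rfl⟩ := mem_sup_of_le_normalizer (hRP.trans hPN) ht
    have hqN : q ∈ Subgroup.normalizer (R : Set G) := by
      have h2 := Subgroup.mul_mem _ (Subgroup.inv_mem _ (Subgroup.le_normalizer hr)) htN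
      simpa using h2
    exact R.mul_mem hr (hNQ q hq hqN)
  exact absurd (Subgroup.card_le_of_le hle) (not_le.mpr hlt)

/-- **The least centric-radical subgroup.** -/
theorem least_cr [Finite G] {p : ℕ} [Fact p.Prime] (P : Sylow p G) (W : Subgroup G)
    (hWP : W ≤ (P : Subgroup G))
    (hCW : ∀ x ∈ (P : Subgroup G), x ∈ Subgroup.centralizer (W : Set G) → x ∈ W)
    (hW : CtlS (P : Subgroup G) W)
    (cr : Subgroup G → Prop)
    (hcr : ∀ Q : Subgroup G, cr Q ↔ (Q ≤ (P : Subgroup G) ∧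
      (∃ R : Sylow p ↥(Subgroup.centralizer (Q : Set G)),
        (R : Subgroup ↥(Subgroup.centralizer (Q : Set G))).map (Subgroup.centralizer (Q : Set G)).subtype = Q ⊓ Subgroup.centralizer (Q : Set G)) ∧
      ∀ X : Subgroup G, X ≤ Subgroup.normalizer (Q : Set G) →
        (∀ n ∈ Subgroup.normalizer (Q : Set G), X.map (MulAut.conj n).toMonoidHom = X) →
        Q ⊔ Subgroup.centralizer (Q : Set G) ≤ X → (∃ k : ℕ, (Q ⊔ Subgroup.centralizer (Q : Set G)).relIndex X = p ^ k) →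
        X = Q ⊔ Subgroup.centralizer (Q : Set G))) :
    ∃ Q : Subgroup G, cr Q ∧ (∀ R : Subgroup G, cr R → Q ≤ R) ∧ (∀ x ∈ (P : Subgroup G), Q.map (MulAut.conj x).toMonoidHom = Q) ∧
      ∀ A : Subgroup G, A ≤ (P : Subgroup G) → ∀ g : G, A.map (MulAut.conj g).toMonoidHom ≤ (P : Subgroup G) →
        ∃ h ∈ Subgroup.normalizer (Q : Set G), ∃ c ∈ Subgroup.centralizer (A : Set G), g = h * c := by
  obtain ⟨Q, hQP, hQ, hmax⟩ := exists_max_ctlS (P : Subgroup G)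
  have hPN : (P : Subgroup G) ≤ Subgroup.normalizer (Q : Set G) := by
    intro x hx
    obtain ⟨h, hh, c, hc, rfl⟩ := hQ Q hQP x
      (fun q hq => Subgroup.mul_mem _ (Subgroup.mul_mem _ hx (hQP hq)) (Subgroup.inv_mem _ hx))
    exact Subgroup.mul_mem _ hh (Subgroup.centralizer_le_normalizer _ hc)
  have hWQ : W ≤ Q := hmax W hWP hW
  have hCQ : ∀ x ∈ (P : Subgroup G), x ∈ Subgroup.centralizer (Q : Set G) → x ∈ Q :=
    fun x hx hxC => hWQ (hCW x hx
      (Subgroup.centralizer_le (SetLike.coe_subset_coe.mpr hWQ) hxC))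
  refine ⟨Q, ?_, ?_, ?_, ?_⟩
  · rw [hcr]
    refine ⟨hQP, centric_sylow P Q hQP hPN hCQ, ?_⟩
    intro X hXN hXn hKX hidx
    exact radical_of_max P Q hQP hQ hmax hPN hCQ X hXN
      (fun n hn x hx => conj_mem_of_map_eq (hXn n hn) hx) hKX hidx
  · intro R hR
    rw [hcr] at hR
    exact le_of_cr P Q hQP hQ hPN R hR.1 hR.2.1 hR.2.2
  · exact map_conj_eq_of_forall (N := (P : Subgroup G))
      (fun n hn x hx => conj_mem_of_mem_normalizer (hPN hn) hx)
  · intro A hA g hg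
    exact hQ A hA g (fun a ha => hg ⟨a, ha, rfl⟩)

end Cfsg.Agent.Lib.Helper12.CentricRadical
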