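import Mathlib

set_option autoImplicit false

namespace Cfsg.Agent.Lib.Helper12.CrossedHom

/-- In a finite abelian `p`-group, `x ↦ x ^ n` is inverted by a suitable integer power when `n` is
prime to `p`. -/
theorem exists_zpow_inv {A : Type*} [CommGroup A] [Finite A] {p : ℕ} [Fact p.Prime]
    (hA : IsPGroup p A) (n : ℕ) (hn : ¬ p ∣ n) : ∃ u : ℤ, ∀ x : A, (x ^ n) ^ u = x := by
  obtain ⟨e, he⟩ := IsPGroup.iff_card.mp hA
  have hcop : Nat.Coprime n (p ^ e) :=
    Nat.Coprime.pow_right e ((Nat.Prime.coprime_iff_not_dvd Fact.out).mpr hn).symm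
  have hbez : ∃ u v : ℤ, (n : ℤ) * u + (p ^ e : ℕ) * v = 1 := by
    have h := Nat.gcd_eq_gcd_ab n (p ^ e)
    rw [hcop] at h
    exact ⟨Nat.gcdA n (p ^ e), Nat.gcdB n (p ^ e), by rw [← h]; simp⟩
  obtain ⟨u, v, huv⟩ := hbez
  refine ⟨u, fun x => ?_⟩
  have h1 : x ^ (p ^ e) = 1 := by rw [← he]; exact pow_card_eq_one'
  calc (x ^ n) ^ u = x ^ ((n : ℤ) * u) := by
        rw [zpow_mul, zpow_natCast]
    _ = x ^ ((n : ℤ) * u + (p ^ e : ℕ) * v) := by
        rw [zpow_add, zpow_mul (a := x) ((p ^ e : ℕ) : ℤ) v, zpow_natCast, h1, one_zpow, mul_one]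
    _ = x := by rw [huv, zpow_one]

/-- Restriction to a subgroup of index prime to `p` is injective on `H¹(G, A)` for a finite abelian
`p`-group `A`: a crossed homomorphism that vanishes on `T` is principal. -/
theorem crossed_hom_principal {G A : Type*} [Group G] [Finite G] [CommGroup A] [Finite A]
    [MulDistribMulAction G A] {p : ℕ} [Fact p.Prime] (hA : IsPGroup p A) (T : Subgroup G)
    (hT : ¬ p ∣ T.index) (ε : G → A) (hε : ∀ x y : G, ε (x * y) = x • ε y * ε x)
    (hεT : ∀ t ∈ T, ε t = 1) : ∃ u : A, ∀ x : G, ε x = u * (x • u)⁻¹ := by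
  classical
  letI : Fintype (G ⧸ T) := Fintype.ofFinite _
  obtain ⟨k, hk⟩ := exists_zpow_inv hA T.index hT
  have hcoset : ∀ (x : G) (t : G), t ∈ T → ε (x * t) = ε x := by
    intro x t ht
    rw [hε, hεT t ht, smul_one, one_mul]
  have hout : ∀ (x : G) (q : G ⧸ T), ε (x * (Quotient.out q : G)) = ε (Quotient.out (x • q) : G) := by
    intro x q
    have h1 : ((Quotient.out (x • q) : G) : G ⧸ T) = ((x * (Quotient.out q : G) : G) : G ⧸ T) := by
      rw [QuotientGroup.out_eq']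
      have h2 : ((x * (Quotient.out q : G) : G) : G ⧸ T) = x • ((Quotient.out q : G) : G ⧸ T) := rfl
      rw [h2, QuotientGroup.out_eq']
    have h3 : (Quotient.out (x • q) : G)⁻¹ * (x * (Quotient.out q : G)) ∈ T := QuotientGroup.eq.mp h1
    have h4 := hcoset (Quotient.out (x • q) : G) _ h3
    rw [mul_inv_cancel_left] at h4
    exact h4
  have hw : ∀ x : G, (ε x) ^ T.index =
      (∏ q : G ⧸ T, ε (Quotient.out q : G)) * (x • ∏ q : G ⧸ T, ε (Quotient.out q : G))⁻¹ := by
    intro x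
    have e1 : x • ∏ q : G ⧸ T, ε (Quotient.out q : G) =
        ∏ q : G ⧸ T, (ε (Quotient.out (x • q) : G) * (ε x)⁻¹) := by
      rw [Finset.smul_prod']
      apply Finset.prod_congr rfl
      intro q _
      rw [← hout, hε x, mul_inv_cancel_right]
    have e2 : ∏ q : G ⧸ T, ε (Quotient.out (x • q) : G) = ∏ q : G ⧸ T, ε (Quotient.out q : G) :=
      Fintype.prod_equiv (MulAction.toPerm x) _ _ (fun q => rfl)
    rw [e1, Finset.prod_mul_distrib, e2, Finset.prod_const, Finset.card_univ,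
      ← Nat.card_eq_fintype_card, ← Subgroup.index_eq_card, inv_pow, mul_inv, inv_inv,
      mul_inv_cancel_left]
  refine ⟨(∏ q : G ⧸ T, ε (Quotient.out q : G)) ^ k, fun x => ?_⟩
  rw [smul_zpow', ← inv_zpow, ← mul_zpow, ← hw x, hk]

end Cfsg.Agent.Lib.Helper12.CrossedHom
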