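import Mathlib

set_option autoImplicit false

namespace Cfsg.Agent.Lib.Helper12.FixedFactor

open scoped Classical in
/-- the relative trace (norm) map `a ↦ ∏_{q ∈ M/T} q • a` on a commutative group with `M`-action -/
noncomputable def tr {M A : Type*} [Group M] [Finite M] [CommGroup A] [MulDistribMulAction M A]
    (T : Subgroup M) : A →* A :=
  letI : Fintype (M ⧸ T) := Fintype.ofFinite _
  { toFun := fun a => ∏ q : M ⧸ T, (Quotient.out q : M) • a
    map_one' := by simp
    map_mul' := fun a b => by simp [smul_mul', Finset.prod_mul_distrib] }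

section
variable {M A : Type*} [Group M] [Finite M] [CommGroup A] [MulDistribMulAction M A]
  (T : Subgroup M)

open scoped Classical in
theorem tr_apply (a : A) :
    tr T a = letI : Fintype (M ⧸ T) := Fintype.ofFinite _
      ∏ q : M ⧸ T, (Quotient.out q : M) • a := rfl

theorem out_smul_eq (m : M) (q : M ⧸ T) (a : A) (ha : ∀ t ∈ T, t • a = a) :
    (m * (Quotient.out q : M)) • a = (Quotient.out (m • q) : M) • a := by
  have h1 : ((Quotient.out (m • q) : M) : M ⧸ T) = ((m * (Quotient.out q : M) : M) : M ⧸ T) := by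
    rw [QuotientGroup.out_eq']
    have h2 : ((m * (Quotient.out q : M) : M) : M ⧸ T) = m • ((Quotient.out q : M) : M ⧸ T) := rfl
    rw [h2, QuotientGroup.out_eq']
  have h3 : (Quotient.out (m • q) : M)⁻¹ * (m * (Quotient.out q : M)) ∈ T := QuotientGroup.eq.mp h1
  have h4 := ha _ h3
  calc (m * (Quotient.out q : M)) • a
      = ((Quotient.out (m • q) : M) * ((Quotient.out (m • q) : M)⁻¹ * (m * (Quotient.out q : M)))) • a := by
        rw [mul_inv_cancel_left]
    _ = (Quotient.out (m • q) : M) • a := by rw [mul_smul, h4]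

theorem smul_tr (m : M) (a : A) (ha : ∀ t ∈ T, t • a = a) : m • tr T a = tr T a := by
  classical
  letI : Fintype (M ⧸ T) := Fintype.ofFinite _
  have e1 : tr T a = ∏ q : M ⧸ T, (Quotient.out q : M) • a := by
    rw [tr_apply]
  rw [e1, Finset.smul_prod']
  have e2 : ∀ q : M ⧸ T, m • ((Quotient.out q : M) • a) = (Quotient.out (m • q) : M) • a := by
    intro q
    rw [← mul_smul]
    exact out_smul_eq T m q a ha
  simp only [e2]
  exact Fintype.prod_equiv (MulAction.toPerm m) _ _ (fun q => rfl)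

theorem tr_of_fixed (a : A) (ha : ∀ m : M, m • a = a) : tr T a = a ^ T.index := by
  classical
  letI : Fintype (M ⧸ T) := Fintype.ofFinite _
  have e1 : tr T a = ∏ q : M ⧸ T, (Quotient.out q : M) • a := by
    rw [tr_apply]
  rw [e1]
  simp only [ha]
  rw [Finset.prod_const, Finset.card_univ, Subgroup.index_eq_card, Nat.card_eq_fintype_card]

/-- the fixed points of `M` form a direct factor of the fixed points of a subgroup `T` of index
prime to `p` on a finite abelian `p`-group -/
theorem exists_complement_fixed [Finite A] {p : ℕ} [Fact p.Prime] (hA : IsPGroup p A)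
    (hT : ¬ p ∣ T.index) :
    ∃ K : Subgroup A, (∀ k ∈ K, ∀ t ∈ T, t • k = k) ∧
      (∀ k ∈ K, (∀ m : M, m • k = k) → k = 1) ∧
      ∀ a : A, (∀ t ∈ T, t • a = a) →
        ∃ w k : A, (∀ m : M, m • w = w) ∧ k ∈ K ∧ a = w * k := by
  obtain ⟨e, he⟩ := IsPGroup.iff_card.mp hA
  have hcop : Nat.Coprime T.index (p ^ e) :=
    Nat.Coprime.pow_right e ((Nat.Prime.coprime_iff_not_dvd Fact.out).mpr hT).symm
  have hbez : ∃ u v : ℤ, (T.index : ℤ) * u + (p ^ e : ℕ) * v = 1 := by
    have h := Nat.gcd_eq_gcd_ab T.index (p ^ e)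
    rw [hcop] at h
    exact ⟨Nat.gcdA T.index (p ^ e), Nat.gcdB T.index (p ^ e), by rw [← h]; simp⟩
  obtain ⟨u, v, huv⟩ := hbez
  have hpow : ∀ x : A, (x ^ T.index) ^ u = x := by
    intro x
    have h1 : x ^ (p ^ e) = 1 := by rw [← he]; exact pow_card_eq_one'
    calc (x ^ T.index) ^ u = x ^ ((T.index : ℤ) * u) := by
          rw [zpow_mul, zpow_natCast]
      _ = x ^ ((T.index : ℤ) * u + (p ^ e : ℕ) * v) := by
          rw [zpow_add, zpow_mul (a := x) ((p ^ e : ℕ) : ℤ) v, zpow_natCast, h1, one_zpow, mul_one]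
      _ = x := by rw [huv, zpow_one]
  let K : Subgroup A :=
    { carrier := {a | (∀ t ∈ T, t • a = a) ∧ tr T a = 1}
      one_mem' := ⟨fun t _ => smul_one t, map_one _⟩
      mul_mem' := by
        rintro a b ⟨ha, ha'⟩ ⟨hb, hb'⟩
        refine ⟨fun t ht => by rw [smul_mul', ha t ht, hb t ht], ?_⟩
        rw [map_mul, ha', hb', one_mul]
      inv_mem' := by
        rintro a ⟨ha, ha'⟩
        refine ⟨fun t ht => by rw [smul_inv', ha t ht], ?_⟩
        rw [map_inv, ha', inv_one] }
  refine ⟨K, fun k hk => hk.1, ?_, ?_⟩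
  · intro k hk hkM
    have h1 : tr T k = k ^ T.index := tr_of_fixed T k hkM
    have h2 : k ^ T.index = 1 := by rw [← h1]; exact hk.2
    rw [← hpow k, h2, one_zpow]
  · intro a ha
    have hwM : ∀ m : M, m • (tr T a) ^ u = (tr T a) ^ u := by
      intro m
      rw [smul_zpow', smul_tr T m a ha]
    refine ⟨(tr T a) ^ u, a * ((tr T a) ^ u)⁻¹, hwM, ⟨?_, ?_⟩, by rw [mul_comm a, mul_inv_cancel_left]⟩
    · intro t ht
      rw [smul_mul', ha t ht, smul_inv', hwM t]
    · rw [map_mul, map_inv, tr_of_fixed T _ hwM]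
      have h3 : ((tr T a) ^ u) ^ T.index = tr T a := by
        rw [← zpow_natCast, ← zpow_mul, mul_comm, zpow_mul, zpow_natCast]
        exact hpow _
      rw [h3, mul_inv_cancel]

end

end Cfsg.Agent.Lib.Helper12.FixedFactor
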