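import Mathlib
import Cfsg.Agent.S1969
import Cfsg.Agent.S1978
import Cfsg.Agent.S2004
import Cfsg.Agent.Lib.Helper9.PStab
import Cfsg.Agent.Lib.Helper9.Cores
import Cfsg.Agent.Lib.Helper16.QdOver
import Cfsg.Agent.Lib.Helper12.KInf
import Cfsg.Agent.Lib.Helper12.QStab
import Cfsg.Agent.Lib.Helper12.KInfStable
import Cfsg.Agent.Lib.Helper12.FusionLift

/-!
# Groups whose `p`-automizers are `SL₂(p)`-free (helper12)

If no `N_G(Q)/C_G(Q)` (`Q` a `p`-subgroup) has a section `SL₂(p)`, then every constrained section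
of `G` is `SL₂(p)`-free, hence `p`-stable, so `N_G(K^∞(P))` controls strong fusion in `P`.
-/

set_option autoImplicit false
universe u

namespace Cfsg.Agent.Lib.Helper12.SL2Auto

open Cfsg Cfsg.Agent.Lib.Helper9.PStab

/-- transfer of `HasSL2` along a span `B ← A → D` -/
theorem hasSL2_transfer {p : ℕ} {A B D : Type*} [Group A] [Group B] [Group D] (ι : A →* B)
    (ψ : A →* D) (hψ : Function.Surjective ψ) (hker : ι.ker ≤ ψ.ker) (h : HasSL2 p D) :
    HasSL2 p B := by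
  have h1 : HasSL2 p (A ⧸ ι.ker) := by
    refine HasSL2.of_surjective (QuotientGroup.lift ι.ker ψ hker) ?_ h
    intro d
    obtain ⟨a, rfl⟩ := hψ d
    exact ⟨QuotientGroup.mk a, rfl⟩
  exact HasSL2.of_injective (QuotientGroup.kerLift ι) (QuotientGroup.kerLift_injective ι) h1

theorem hasSL2_self (p : ℕ) : HasSL2 p (Matrix.SpecialLinearGroup (Fin 2) (ZMod p)) :=
  ⟨⊤, (Subgroup.topEquiv : (⊤ : Subgroup (Matrix.SpecialLinearGroup (Fin 2) (ZMod p))) ≃* _).toMonoidHom,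
    fun x => ⟨⟨x, trivial⟩, rfl⟩⟩

/-- `SL₂(p)` survives the quotient by a normal `p`-subgroup -/
theorem hasSL2_quot {p : ℕ} [Fact p.Prime] {Y : Type*} [Group Y] (C : Subgroup Y) [C.Normal]
    (hC : IsPGroup p C) (h : HasSL2 p Y) : HasSL2 p (Y ⧸ C) := by
  obtain ⟨K₁, φ, hφ⟩ := h
  have hN : ((C.subgroupOf K₁).map φ) = ⊥ := by
    apply Cfsg.Agent.Lib.Helper16.QdOver.normal_p_trivial p
    · exact Subgroup.Normal.map inferInstance φ hφ
    · exact (hC.comap_subtype).map φ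
  refine hasSL2_transfer ((QuotientGroup.mk' C).comp K₁.subtype) φ hφ ?_ (hasSL2_self p)
  intro x hx
  rw [MonoidHom.mem_ker] at hx ⊢
  have h1 : x ∈ C.subgroupOf K₁ := by
    rw [Subgroup.mem_subgroupOf]
    exact (QuotientGroup.eq_one_iff _).mp hx
  have h2 : φ x ∈ (C.subgroupOf K₁).map φ := Subgroup.mem_map_of_mem _ h1
  rw [hN, Subgroup.mem_bot] at h2
  exact h2

/-- Frattini lifting of a normal `p`-subgroup of a quotient -/
theorem frattini_lift {p : ℕ} [Fact p.Prime] {Γ Y : Type*} [Group Γ] [Finite Γ] [Group Y]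
    (f : Γ →* Y) (hf : Function.Surjective f) (Pb : Subgroup Y) [Pb.Normal] (hPb : IsPGroup p Pb) :
    ∃ P₀ : Subgroup Γ, IsPGroup p P₀ ∧ P₀.map f = Pb ∧
      ∀ y : Y, ∃ n ∈ Subgroup.normalizer (P₀ : Set Γ), f n = y := by
  haveI hX₀n : (Pb.comap f).Normal := Subgroup.Normal.comap inferInstance f
  obtain ⟨S⟩ : Nonempty (Sylow p ↥(Pb.comap f)) := inferInstance
  have hfr := Sylow.normalizer_sup_eq_top S
  obtain ⟨P₀, hP₀⟩ : ∃ P₀ : Subgroup Γ, P₀ = (S : Subgroup ↥(Pb.comap f)).map (Pb.comap f).subtype :=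
    ⟨_, rfl⟩
  rw [← hP₀] at hfr
  have hP₀p : IsPGroup p P₀ := by rw [hP₀]; exact S.isPGroup'.map _
  have hP₀X : P₀ ≤ Pb.comap f := by rw [hP₀]; exact Subgroup.map_subtype_le _
  have hmap : P₀.map f = Pb := by
    apply le_antisymm
    · rintro _ ⟨x, hx, rfl⟩
      exact hP₀X hx
    · intro y hy
      have hsurj : Function.Surjective (f.subgroupComap Pb) :=
        MonoidHom.subgroupComap_surjective_of_surjective f Pb hf
      have hT : (⊤ : Subgroup ↥Pb) = (S.mapSurjective hsurj : Sylow p ↥Pb) :=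
        (S.mapSurjective hsurj).is_maximal' (hPb.to_subgroup ⊤) le_top
      have hy' : (⟨y, hy⟩ : ↥Pb) ∈ ((S.mapSurjective hsurj : Sylow p ↥Pb) : Subgroup ↥Pb) := by
        rw [← hT]; trivial
      rw [Sylow.coe_mapSurjective] at hy'
      obtain ⟨x, hx, hxy⟩ := hy'
      refine ⟨(x : Γ), ?_, ?_⟩
      · rw [hP₀]; exact ⟨x, hx, rfl⟩
      · exact congrArg Subtype.val hxy
  refine ⟨P₀, hP₀p, hmap, ?_⟩
  intro y
  obtain ⟨γ, rfl⟩ := hf y
  have hγ : γ ∈ Subgroup.normalizer (P₀ : Set Γ) ⊔ Pb.comap f := by rw [hfr]; trivial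
  have hle : Subgroup.normalizer (P₀ : Set Γ) ≤ Subgroup.normalizer ((Pb.comap f : Subgroup Γ) : Set Γ) := by
    rw [Subgroup.normalizer_eq_top_iff.mpr hX₀n]; exact le_top
  obtain ⟨a, ha, b, hb, rfl⟩ := Cfsg.Agent.Lib.Helper12.FusionLift.mem_sup_of_le_normalizer hle hγ
  have hb' : f b ∈ P₀.map f := by rw [hmap]; exact hb
  obtain ⟨q, hq, hqb⟩ := hb'
  refine ⟨a * q, Subgroup.mul_mem _ ha (Subgroup.le_normalizer hq), ?_⟩
  rw [map_mul, map_mul, hqb]

/-- a section of `N/C` isomorphic to `SL₂(p)` from a subgroup of `N/C` mapping onto it -/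
theorem section_of_hasSL2_quot {p : ℕ} {G : Type*} [Group G] (N C : Subgroup G) (hCN : C ≤ N)
    [hn : (C.subgroupOf N).Normal] (h : HasSL2 p (↥N ⧸ C.subgroupOf N)) :
    ∃ (H K : Subgroup G) (_ : (K.subgroupOf H).Normal), C ≤ K ∧ K ≤ H ∧ H ≤ N ∧
      Nonempty ((↥H ⧸ K.subgroupOf H) ≃* Matrix.SpecialLinearGroup (Fin 2) (ZMod p)) := by
  obtain ⟨K₂, φ₂, hφ₂⟩ := h
  obtain ⟨π, hπ⟩ : ∃ π : ↥N →* ↥N ⧸ C.subgroupOf N, π = QuotientGroup.mk' (C.subgroupOf N) :=
    ⟨_, rfl⟩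
  have hπC : ∀ (c : G) (hc : c ∈ C), π ⟨c, hCN hc⟩ = 1 := by
    intro c hc
    rw [hπ, QuotientGroup.mk'_apply, QuotientGroup.eq_one_iff, Subgroup.mem_subgroupOf]
    exact hc
  obtain ⟨H, hH⟩ : ∃ H : Subgroup G, H = (K₂.comap π).map N.subtype := ⟨_, rfl⟩
  have hHN : H ≤ N := by rw [hH]; exact Subgroup.map_subtype_le _
  have hmemH : ∀ x : ↥H, (π.comp (Subgroup.inclusion hHN)) x ∈ K₂ := by
    rintro ⟨x, hx⟩
    have hx' := hx
    rw [hH] at hx'
    obtain ⟨y, hy, hyx⟩ := hx'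
    have e : Subgroup.inclusion hHN ⟨x, hx⟩ = y := Subtype.ext hyx.symm
    show π (Subgroup.inclusion hHN ⟨x, hx⟩) ∈ K₂
    rw [e]; exact hy
  obtain ⟨θ, hθ⟩ : ∃ θ : ↥H →* Matrix.SpecialLinearGroup (Fin 2) (ZMod p),
      θ = φ₂.comp ((π.comp (Subgroup.inclusion hHN)).codRestrict K₂ hmemH) := ⟨_, rfl⟩
  have hθs : Function.Surjective θ := by
    intro s
    obtain ⟨k, rfl⟩ := hφ₂ s
    obtain ⟨n, hn⟩ : ∃ n : ↥N, π n = k.1 := by
      rw [hπ]; exact QuotientGroup.mk'_surjective _ k.1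
    have hnH : (n : G) ∈ H := by
      rw [hH]
      refine ⟨n, ?_, rfl⟩
      show π n ∈ K₂
      rw [hn]; exact k.2
    refine ⟨⟨n, hnH⟩, ?_⟩
    rw [hθ]
    show φ₂ _ = φ₂ k
    congr 1
    apply Subtype.ext
    exact hn
  have hker : (θ.ker.map H.subtype).subgroupOf H = θ.ker := by
    ext x
    rw [Subgroup.mem_subgroupOf]
    constructor
    · rintro ⟨y, hy, hyx⟩
      have : y = x := Subtype.ext hyx
      rwa [← this]
    · intro hx
      exact ⟨x, hx, rfl⟩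
  have hn' : ((θ.ker.map H.subtype).subgroupOf H).Normal := by rw [hker]; infer_instance
  refine ⟨H, θ.ker.map H.subtype, hn', ?_, Subgroup.map_subtype_le _, hHN, ?_⟩
  · intro c hc
    have hcH : c ∈ H := by
      rw [hH]
      refine ⟨⟨c, hCN hc⟩, ?_, rfl⟩
      show π ⟨c, hCN hc⟩ ∈ K₂
      rw [hπC c hc]; exact K₂.one_mem
    refine ⟨⟨c, hcH⟩, ?_, rfl⟩
    rw [SetLike.mem_coe, MonoidHom.mem_ker, hθ]
    show φ₂ _ = 1
    have e : ((π.comp (Subgroup.inclusion hHN)).codRestrict K₂ hmemH ⟨c, hcH⟩) = 1 := by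
      apply Subtype.ext
      exact hπC c hc
    rw [e, map_one]
  · exact ⟨(QuotientGroup.quotientMulEquivOfEq hker).trans
      (QuotientGroup.quotientKerEquivOfSurjective θ hθs)⟩

/-- constrained sections of a group with `SL₂(p)`-free `p`-automizers are `SL₂(p)`-free -/
theorem not_hasSL2_of_free {G : Type u} [Group G] [Finite G] {p : ℕ} [Fact p.Prime]
    (hfree : ∀ Q : Subgroup G, IsPGroup p ↥Q → ¬ ∃ (H K : Subgroup G) (_ : (K.subgroupOf H).Normal),
      Subgroup.centralizer (Q : Set G) ≤ K ∧ K ≤ H ∧ H ≤ Subgroup.normalizer (Q : Set G) ∧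
      Nonempty ((↥H ⧸ K.subgroupOf H) ≃* Matrix.SpecialLinearGroup (Fin 2) (ZMod p)))
    {Y : Type u} [Group Y] (K : Subgroup G) (f : ↥K →* Y) (hf : Function.Surjective f)
    (hc : Subgroup.centralizer ((pCore p Y : Subgroup Y) : Set Y) ≤ pCore p Y) : ¬ HasSL2 p Y := by
  intro hY
  haveI : Finite Y := Finite.of_surjective f hf
  haveI hPn : (pCore p Y).Normal := Cfsg.Agent.Lib.Helper12.SylowBasic.pCore_normal' p
  have hPp : IsPGroup p (pCore p Y) := Cfsg.Agent.Lib.Helper9.pCore_isPGroup p Y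
  have hCp : IsPGroup p (Subgroup.centralizer ((pCore p Y : Subgroup Y) : Set Y)) := hPp.to_le hc
  have h1 := hasSL2_quot _ hCp hY
  obtain ⟨P₀, hP₀p, hP₀map, hP₀N⟩ := frattini_lift f hf (pCore p Y) hPp
  obtain ⟨Q, hQ⟩ : ∃ Q : Subgroup G, Q = P₀.map K.subtype := ⟨_, rfl⟩
  have hQp : IsPGroup p Q := by rw [hQ]; exact hP₀p.map _
  apply hfree Q hQp
  have hmemN : ∀ m : ↥(Subgroup.normalizer (P₀ : Set ↥K)),
      (K.subtype.comp (Subgroup.normalizer (P₀ : Set ↥K)).subtype) m ∈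
        Subgroup.normalizer (Q : Set G) := by
    intro m
    rw [hQ]
    exact Subgroup.le_normalizer_map K.subtype ⟨m, m.2, rfl⟩
  have h2 : HasSL2 p (↥(Subgroup.normalizer (Q : Set G)) ⧸
      (Subgroup.centralizer (Q : Set G)).subgroupOf (Subgroup.normalizer (Q : Set G))) := by
    refine hasSL2_transfer
      ((QuotientGroup.mk' _).comp
        ((K.subtype.comp (Subgroup.normalizer (P₀ : Set ↥K)).subtype).codRestrict _ hmemN))
      ((QuotientGroup.mk' (Subgroup.centralizer ((pCore p Y : Subgroup Y) : Set Y))).comp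
        (f.comp (Subgroup.normalizer (P₀ : Set ↥K)).subtype)) ?_ ?_ h1
    · intro y
      obtain ⟨y', rfl⟩ := QuotientGroup.mk'_surjective _ y
      obtain ⟨n, hn, rfl⟩ := hP₀N y'
      exact ⟨⟨n, hn⟩, rfl⟩
    · intro m hm
      rw [MonoidHom.mem_ker] at hm ⊢
      have hm1 : ((m : ↥K) : G) ∈ Subgroup.centralizer (Q : Set G) := by
        have := (QuotientGroup.eq_one_iff _).mp hm
        rw [Subgroup.mem_subgroupOf] at this
        exact this
      show QuotientGroup.mk' _ (f (m : ↥K)) = 1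
      rw [QuotientGroup.mk'_apply, QuotientGroup.eq_one_iff, Subgroup.mem_centralizer_iff]
      intro y hy
      rw [SetLike.mem_coe, ← hP₀map] at hy
      obtain ⟨q, hq, rfl⟩ := hy
      rw [← map_mul, ← map_mul]
      congr 1
      apply Subtype.ext
      rw [Subgroup.mem_centralizer_iff] at hm1
      have := hm1 (q : G) (by rw [hQ]; exact ⟨q, hq, rfl⟩)
      simpa using this
  exact section_of_hasSL2_quot _ _ (Subgroup.centralizer_le_normalizer _) h2

/-- the hypothesis of the fusion induction for `K^∞` -/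
theorem hyp_of_free {G : Type u} [Group G] [Finite G] {p : ℕ} [Fact p.Prime] (hp : p ≠ 2)
    (hfree : ∀ Q : Subgroup G, IsPGroup p ↥Q → ¬ ∃ (H K : Subgroup G) (_ : (K.subgroupOf H).Normal),
      Subgroup.centralizer (Q : Set G) ≤ K ∧ K ≤ H ∧ H ≤ Subgroup.normalizer (Q : Set G) ∧
      Nonempty ((↥H ⧸ K.subgroupOf H) ≃* Matrix.SpecialLinearGroup (Fin 2) (ZMod p))) :
    Cfsg.Agent.S1969.Hyp p Cfsg.kInfLower G := by
  intro Y _ K f hf hc T
  haveI : Finite Y := Finite.of_surjective f hf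
  have hY := not_hasSL2_of_free hfree K f hf hc
  have hst : ∀ (K' R : Subgroup Y) [hR : (R.subgroupOf K').Normal],
      Cfsg.IsNormalizerPStable p (↥K' ⧸ R.subgroupOf K') :=
    Cfsg.Agent.S2004.result hp (fun P₁ _ _ hinv =>
      hY (HasSL2.of_injective (Subgroup.normalizer (P₁ : Set Y)).subtype
        (Subgroup.subtype_injective _) (HasSL2.of_involves hinv)))
  exact (Cfsg.Agent.Lib.Helper12.KInfStable.kinf_normal_of_stable
    (Cfsg.Agent.Lib.Helper12.QStab.qstab_of_sections hst) hc T).1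

/-- `N_G(K^∞(P))` controls strong fusion in `P` -/
theorem ctl_of_free {G : Type u} [Group G] [Finite G] {p : ℕ} [Fact p.Prime] (hp : p ≠ 2)
    (hfree : ∀ Q : Subgroup G, IsPGroup p ↥Q → ¬ ∃ (H K : Subgroup G) (_ : (K.subgroupOf H).Normal),
      Subgroup.centralizer (Q : Set G) ≤ K ∧ K ≤ H ∧ H ≤ Subgroup.normalizer (Q : Set G) ∧
      Nonempty ((↥H ⧸ K.subgroupOf H) ≃* Matrix.SpecialLinearGroup (Fin 2) (ZMod p)))
    (P : Sylow p G) :
    ∀ A : Subgroup G, A ≤ (P : Subgroup G) → ∀ g : G, (∀ a ∈ A, g * a * g⁻¹ ∈ (P : Subgroup G)) →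
      ∃ h ∈ Subgroup.normalizer
        ((Cfsg.inducedFunctor Cfsg.kInfLower (P : Subgroup G) : Subgroup G) : Set G),
        ∃ c ∈ Subgroup.centralizer (A : Set G), g = h * c := by
  intro A hA g hg
  have hmain := Cfsg.Agent.S1969.main Cfsg.kInfLower
    (Cfsg.Agent.Lib.Helper12.KInf.isChar_kInfLower p) _ G rfl (hyp_of_free hp hfree) P
  obtain ⟨x, hx, hx2⟩ := hmain (A : Set G) g (Subgroup.mem_top _) (fun a ha => hA ha) hg
  refine ⟨x, hx, x⁻¹ * g, ?_, by group⟩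
  rw [Subgroup.mem_centralizer_iff]
  intro a ha
  have h1 := hx2 a ha
  calc a * (x⁻¹ * g) = x⁻¹ * (x * a * x⁻¹) * g := by group
    _ = x⁻¹ * (g * a * g⁻¹) * g := by rw [h1]
    _ = x⁻¹ * g * a := by group

/-- `K^∞(P)` (inside `G`) contains its centralizer in `P` -/
theorem cent_kinf_le {G : Type u} [Group G] [Finite G] {p : ℕ} [Fact p.Prime] (P : Sylow p G) :
    ∀ x ∈ (P : Subgroup G),
      x ∈ Subgroup.centralizer
        ((Cfsg.inducedFunctor Cfsg.kInfLower (P : Subgroup G) : Subgroup G) : Set G) →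
      x ∈ Cfsg.inducedFunctor Cfsg.kInfLower (P : Subgroup G) := by
  intro x hxP hx
  have h1 := (Cfsg.Agent.S1978.result (P := ↥(P : Subgroup G)) P.isPGroup').1
  have h2 : (⟨x, hxP⟩ : ↥(P : Subgroup G)) ∈
      Subgroup.centralizer (Cfsg.kInfLower ↥(P : Subgroup G) : Set ↥(P : Subgroup G)) := by
    rw [Subgroup.mem_centralizer_iff]
    intro y hy
    apply Subtype.ext
    rw [Subgroup.mem_centralizer_iff] at hx
    exact hx (y : G) ⟨y, hy, rfl⟩
  exact ⟨⟨x, hxP⟩, h1 h2, rfl⟩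

theorem kinf_le {G : Type u} [Group G] {p : ℕ} (P : Sylow p G) :
    Cfsg.inducedFunctor Cfsg.kInfLower (P : Subgroup G) ≤ (P : Subgroup G) :=
  Subgroup.map_subtype_le _

end Cfsg.Agent.Lib.Helper12.SL2Auto
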