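import Mathlib

set_option autoImplicit false

/-! A `G`-invariant subgroup of small exponent of a finite `p`-group `P` that detects the
automorphisms of order prime to `p` in a group `G` of automorphisms containing the inner ones
(a `G`-invariant critical subgroup, cut down to the elements of order dividing `p`, or `4`). -/

namespace Cfsg.Agent.Lib.Helper12.SmallExp

open scoped commutatorElement

universe u

variable {P : Type u} [Group P]

theorem pow_mul_comm_class2 (x y z : P) (hz : y * x = z * x * y) (hzy : Commute z y) (n : ℕ) :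
    y ^ n * x = z ^ n * x * y ^ n := by
  induction n with
  | zero => simp
  | succ n ih =>
    have h1 : y * z ^ n = z ^ n * y := ((hzy.pow_left n).eq).symm
    calc y ^ (n + 1) * x = y * (y ^ n * x) := by rw [pow_succ', mul_assoc]
      _ = y * (z ^ n * x * y ^ n) := by rw [ih]
      _ = (y * z ^ n) * x * y ^ n := by simp only [mul_assoc]
      _ = (z ^ n * y) * x * y ^ n := by rw [h1]
      _ = z ^ n * (y * x) * y ^ n := by simp only [mul_assoc]
      _ = z ^ n * (z * x * y) * y ^ n := by rw [hz]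
      _ = z ^ (n + 1) * x * y ^ (n + 1) := by
          rw [pow_succ, pow_succ']; simp only [mul_assoc]

theorem mul_pow_class2 (x y z : P) (hz : y * x = z * x * y) (hzx : Commute z x)
    (hzy : Commute z y) (n : ℕ) : (x * y) ^ n = x ^ n * y ^ n * z ^ (n.choose 2) := by
  induction n with
  | zero => simp
  | succ n ih =>
    have h1 := pow_mul_comm_class2 x y z hz hzy n
    have h2 : (n + 1).choose 2 = n + n.choose 2 := by
      rw [Nat.choose_succ_succ, Nat.choose_one_right]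
    have hc1 : z ^ (n.choose 2) * x = x * z ^ (n.choose 2) := (hzx.pow_left _).eq
    have hc2 : z ^ (n.choose 2) * y = y * z ^ (n.choose 2) := (hzy.pow_left _).eq
    have hc3 : z ^ n * x = x * z ^ n := (hzx.pow_left _).eq
    have hc4 : z ^ n * y ^ (n + 1) = y ^ (n + 1) * z ^ n := ((hzy.pow_left n).pow_right (n + 1)).eq
    have hc5 : z ^ (n.choose 2) * (x * y) = x * y * z ^ (n.choose 2) := by
      rw [← mul_assoc, hc1, mul_assoc, hc2, ← mul_assoc]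
    calc (x * y) ^ (n + 1) = (x * y) ^ n * (x * y) := pow_succ _ _
      _ = x ^ n * y ^ n * z ^ (n.choose 2) * (x * y) := by rw [ih]
      _ = x ^ n * y ^ n * (x * y * z ^ (n.choose 2)) := by rw [mul_assoc, hc5]
      _ = x ^ n * (y ^ n * x) * y * z ^ (n.choose 2) := by simp only [mul_assoc]
      _ = x ^ n * (z ^ n * x * y ^ n) * y * z ^ (n.choose 2) := by rw [h1]
      _ = x ^ n * (z ^ n * x) * (y ^ n * y) * z ^ (n.choose 2) := by simp only [mul_assoc]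
      _ = x ^ n * (x * z ^ n) * y ^ (n + 1) * z ^ (n.choose 2) := by rw [hc3, ← pow_succ]
      _ = x ^ n * x * (z ^ n * y ^ (n + 1)) * z ^ (n.choose 2) := by simp only [mul_assoc]
      _ = x ^ (n + 1) * (y ^ (n + 1) * z ^ n) * z ^ (n.choose 2) := by rw [hc4, ← pow_succ]
      _ = x ^ (n + 1) * y ^ (n + 1) * z ^ ((n + 1).choose 2) := by
          rw [h2, pow_add z n]; simp only [mul_assoc]

theorem comm_pow_left (a b : P) (h : Commute ⁅a, b⁆ a) (n : ℕ) : ⁅a ^ n, b⁆ = ⁅a, b⁆ ^ n := by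
  induction n with
  | zero => simp
  | succ n ih =>
    have e : ⁅a ^ (n + 1), b⁆ = a * ⁅a ^ n, b⁆ * a⁻¹ * ⁅a, b⁆ := by
      simp only [commutatorElement_def, pow_succ']; group
    rw [e, ih]
    have h2 : a * ⁅a, b⁆ ^ n * a⁻¹ = ⁅a, b⁆ ^ n := by
      have h3 := (h.pow_left n).eq
      rw [← h3, mul_inv_cancel_right]
    rw [h2, pow_succ]

theorem fix_of_coprime [Finite P] {p : ℕ} [Fact p.Prime] (hP : IsPGroup p P) (α : MulAut P)
    (hα : (orderOf α).Coprime p) (x : P) (hy : α (x⁻¹ * α x) = x⁻¹ * α x) : α x = x := by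
  have h1 : ∀ n : ℕ, (α ^ n) x = x * (x⁻¹ * α x) ^ n := by
    intro n
    induction n with
    | zero => simp
    | succ n ih =>
      rw [pow_succ', MulAut.mul_apply, ih, map_mul, map_pow, hy, pow_succ', ← mul_assoc x,
        mul_inv_cancel_left]
  have h2 := h1 (orderOf α)
  rw [pow_orderOf_eq_one, MulAut.one_apply] at h2
  have h3 : (x⁻¹ * α x) ^ orderOf α = 1 := by
    have h4 : x * 1 = x * (x⁻¹ * α x) ^ orderOf α := by rw [mul_one]; exact h2
    exact (mul_left_cancel h4).symm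
  obtain ⟨k, hk⟩ := hP (x⁻¹ * α x)
  have h4 : orderOf (x⁻¹ * α x) ∣ Nat.gcd (orderOf α) (p ^ k) :=
    Nat.dvd_gcd (orderOf_dvd_of_pow_eq_one h3) (orderOf_dvd_of_pow_eq_one hk)
  have h5 : Nat.gcd (orderOf α) (p ^ k) = 1 := Nat.Coprime.pow_right k hα
  rw [h5, Nat.dvd_one, orderOf_eq_one_iff] at h4
  calc α x = x * (x⁻¹ * α x) := by group
    _ = x := by rw [h4, mul_one]

theorem exists_central_mod [Finite P] {p : ℕ} [Fact p.Prime] (hP : IsPGroup p P)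
    (Q H : Subgroup P) [hQ : Q.Normal] (hQH : ¬ Q ≤ H) :
    ∃ q ∈ Q, q ∉ H ∧ ∀ x : P, ⁅q, x⁆ ∈ H := by
  haveI : Group.IsNilpotent P := hP.isNilpotent
  obtain ⟨n, hn⟩ : ∃ n, Subgroup.lowerCentralSeries (⊤ : Subgroup P) n = ⊥ :=
    ⟨_, Subgroup.lowerCentralSeries_nilpotencyClass⟩
  have key : ∀ j ≤ n, ∀ X : Subgroup P, X ≤ Q →
      X ≤ Subgroup.lowerCentralSeries (⊤ : Subgroup P) (n - j) → ¬ X ≤ H →
      ∃ q ∈ Q, q ∉ H ∧ ∀ x : P, ⁅q, x⁆ ∈ H := by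
    intro j
    induction j with
    | zero =>
      intro _ X _ hX hXH
      rw [Nat.sub_zero, hn] at hX
      exact absurd (hX.trans bot_le) hXH
    | succ j ih =>
      intro hj X hXQ hX hXH
      by_cases h1 : ⁅X, (⊤ : Subgroup P)⁆ ≤ H
      · obtain ⟨q, hqX, hqH⟩ := SetLike.not_le_iff_exists.mp hXH
        exact ⟨q, hXQ hqX, hqH,
          fun x => h1 (Subgroup.commutator_mem_commutator hqX (Subgroup.mem_top x))⟩
      · refine ih (by omega) ⁅X, ⊤⁆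
          ((Subgroup.commutator_mono hXQ le_rfl).trans (Subgroup.commutator_le_left Q ⊤)) ?_ h1
        have h2 : n - j = (n - (j + 1)) + 1 := by omega
        rw [h2, Subgroup.lowerCentralSeries_succ]
        exact Subgroup.commutator_mono hX le_rfl
  exact key n le_rfl Q le_rfl (by rw [Nat.sub_self]; exact le_top) hQH

/-- A `G`-invariant subgroup `C` of critical type inside the `G`-invariant subgroup `R`, together
with its centre `H`: `[C, P] ≤ H`, `C^p ≤ H`, and `C_R(C) ≤ H`. -/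
theorem exists_critical_inv [Finite P] {p : ℕ} [Fact p.Prime] (hP : IsPGroup p P)
    (G : Subgroup (MulAut P)) (hG : ∀ g : P, MulAut.conj g ∈ G)
    (R : Subgroup P) (hRinv : ∀ α ∈ G, ∀ x ∈ R, α x ∈ R) :
    ∃ H C : Subgroup P, H ≤ C ∧ C ≤ R ∧ (∀ α ∈ G, ∀ x ∈ H, α x ∈ H) ∧
      (∀ α ∈ G, ∀ x ∈ C, α x ∈ C) ∧
      (∀ h ∈ H, ∀ c ∈ C, h * c = c * h) ∧ (∀ c ∈ C, ∀ x : P, ⁅c, x⁆ ∈ H) ∧
      (∀ c ∈ C, c ^ p ∈ H) ∧
      (∀ q ∈ R, (∀ c ∈ C, q * c = c * q) → q ∈ H) := by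
  obtain ⟨H, ⟨hHinv, hHR, hHab⟩, hmax⟩ : ∃ H : Subgroup P,
      ((∀ α ∈ G, ∀ x ∈ H, α x ∈ H) ∧ H ≤ R ∧ ∀ a ∈ H, ∀ b ∈ H, a * b = b * a) ∧
      ∀ H' : Subgroup P, (∀ α ∈ G, ∀ x ∈ H', α x ∈ H') → H' ≤ R →
        (∀ a ∈ H', ∀ b ∈ H', a * b = b * a) → H ≤ H' → H' = H := by
    haveI : Nonempty {H : Subgroup P // (∀ α ∈ G, ∀ x ∈ H, α x ∈ H) ∧ H ≤ R ∧
        ∀ a ∈ H, ∀ b ∈ H, a * b = b * a} :=
      ⟨⟨⊥, fun α _ x hx => by rw [Subgroup.mem_bot] at hx ⊢; rw [hx, map_one], bot_le,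
        fun a ha b hb => by rw [Subgroup.mem_bot] at ha hb; rw [ha, hb]⟩⟩
    obtain ⟨⟨H, hH⟩, hmax⟩ := Finite.exists_max
      (fun H : {H : Subgroup P // (∀ α ∈ G, ∀ x ∈ H, α x ∈ H) ∧ H ≤ R ∧
        ∀ a ∈ H, ∀ b ∈ H, a * b = b * a} => Nat.card ↥H.1)
    refine ⟨H, hH, fun H' h1 h2 h3 hle => ?_⟩
    have h4 := hmax ⟨H', h1, h2, h3⟩
    exact (Subgroup.eq_of_le_of_card_ge hle h4).symm
  have hHn : ∀ h ∈ H, ∀ x : P, x * h * x⁻¹ ∈ H := fun h hh x => by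
    have h1 := hHinv _ (hG x) h hh
    rwa [MulAut.conj_apply] at h1
  have hinv : ∀ α ∈ G, α⁻¹ ∈ G := fun α hα => G.inv_mem hα
  obtain ⟨C, hC⟩ : ∃ C : Subgroup P, ∀ c, c ∈ C ↔
      (c ∈ R ∧ (∀ h ∈ H, c * h = h * c) ∧ (∀ x : P, ⁅c, x⁆ ∈ H) ∧ c ^ p ∈ H) :=
    ⟨{ carrier := {c | c ∈ R ∧ (∀ h ∈ H, c * h = h * c) ∧ (∀ x : P, ⁅c, x⁆ ∈ H) ∧ c ^ p ∈ H}
       mul_mem' := by
         rintro a b ⟨ha1, ha2, ha3, ha4⟩ ⟨hb1, hb2, hb3, hb4⟩
         refine ⟨R.mul_mem ha1 hb1, fun h hh => ?_, fun x => ?_, ?_⟩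
         · rw [mul_assoc, hb2 h hh, ← mul_assoc, ha2 h hh, mul_assoc]
         · have e : ⁅a * b, x⁆ = a * ⁅b, x⁆ * a⁻¹ * ⁅a, x⁆ := by
             simp only [commutatorElement_def]; group
           rw [e]
           exact H.mul_mem (hHn _ (hb3 x) a) (ha3 x)
         · have hz : b * a = ⁅b, a⁆ * a * b := by simp only [commutatorElement_def]; group
           have hzH : ⁅b, a⁆ ∈ H := hb3 a
           have h1 := mul_pow_class2 a b ⁅b, a⁆ hz (ha2 _ hzH).symm (hb2 _ hzH).symm p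
           rw [h1]
           exact H.mul_mem (H.mul_mem ha4 hb4) (H.pow_mem hzH _)
       one_mem' := ⟨R.one_mem, fun h _ => by rw [one_mul, mul_one], fun x => by
           rw [commutatorElement_one_left]; exact H.one_mem, by rw [one_pow]; exact H.one_mem⟩
       inv_mem' := by
         rintro a ⟨ha1, ha2, ha3, ha4⟩
         refine ⟨R.inv_mem ha1, fun h hh => ?_, fun x => ?_, ?_⟩
         · have h1 := ha2 h hh
           calc a⁻¹ * h = a⁻¹ * (h * a) * a⁻¹ := by group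
             _ = a⁻¹ * (a * h) * a⁻¹ := by rw [h1]
             _ = h * a⁻¹ := by group
         · have e : ⁅a⁻¹, x⁆ = a⁻¹ * ⁅a, x⁆⁻¹ * a⁻¹⁻¹ := by
             simp only [commutatorElement_def]; group
           rw [e]
           exact hHn _ (H.inv_mem (ha3 x)) a⁻¹
         · rw [inv_pow]; exact H.inv_mem ha4 }, fun c => Iff.rfl⟩
  have hHC : H ≤ C := fun h hh => (hC h).mpr ⟨hHR hh, fun h' hh' => hHab h hh h' hh', fun x => by
      have e : ⁅h, x⁆ = h * (x * h⁻¹ * x⁻¹) := by simp only [commutatorElement_def]; group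
      rw [e]; exact H.mul_mem hh (hHn _ (H.inv_mem hh) x), H.pow_mem hh p⟩
  have hCR : C ≤ R := fun c hc => ((hC c).mp hc).1
  have hCinv : ∀ α ∈ G, ∀ x ∈ C, α x ∈ C := by
    intro α hα c hc
    obtain ⟨h1, h2, h3, h4⟩ := (hC c).mp hc
    refine (hC _).mpr ⟨hRinv α hα c h1, fun h hh => ?_, fun x => ?_, ?_⟩
    · have h5 := h2 _ (hHinv _ (hinv α hα) h hh)
      have h6 := congrArg α h5
      rw [map_mul, map_mul, MulAut.apply_inv_self] at h6
      exact h6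
    · have h5 := hHinv α hα _ (h3 (α⁻¹ x))
      rw [map_commutatorElement, MulAut.apply_inv_self] at h5
      exact h5
    · rw [← map_pow]; exact hHinv α hα _ h4
  have hHcent : ∀ h ∈ H, ∀ c ∈ C, h * c = c * h :=
    fun h hh c hc => (((hC c).mp hc).2.1 h hh).symm
  have hCcomm : ∀ c ∈ C, ∀ x : P, ⁅c, x⁆ ∈ H := fun c hc x => ((hC c).mp hc).2.2.1 x
  have hCpow : ∀ c ∈ C, c ^ p ∈ H := fun c hc => ((hC c).mp hc).2.2.2
  refine ⟨H, C, hHC, hCR, hHinv, hCinv, hHcent, hCcomm, hCpow, ?_⟩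
  intro q₁ hq₁R hq₁C
  by_contra hq₁H
  obtain ⟨Q, hQ⟩ : ∃ Q : Subgroup P, Q = R ⊓ Subgroup.centralizer (C : Set P) := ⟨_, rfl⟩
  have hQmem : ∀ q, q ∈ Q ↔ q ∈ R ∧ ∀ c ∈ C, q * c = c * q := by
    intro q
    rw [hQ, Subgroup.mem_inf, Subgroup.mem_centralizer_iff]
    constructor
    · rintro ⟨h1, h2⟩; exact ⟨h1, fun c hc => (h2 c hc).symm⟩
    · rintro ⟨h1, h2⟩; exact ⟨h1, fun c hc => (h2 c hc).symm⟩
  have hQinv : ∀ α ∈ G, ∀ q ∈ Q, α q ∈ Q := by
    intro α hα q hq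
    obtain ⟨h1, h2⟩ := (hQmem q).mp hq
    refine (hQmem _).mpr ⟨hRinv α hα q h1, fun c hc => ?_⟩
    have h5 := h2 _ (hCinv _ (hinv α hα) c hc)
    have h6 := congrArg α h5
    rw [map_mul, map_mul, MulAut.apply_inv_self] at h6
    exact h6
  haveI hQn : Q.Normal := ⟨fun q hq x => by
    have h1 := hQinv _ (hG x) q hq
    rwa [MulAut.conj_apply] at h1⟩
  have hQH : ¬ Q ≤ H := fun h => hq₁H (h ((hQmem q₁).mpr ⟨hq₁R, hq₁C⟩))
  obtain ⟨q₀, hq₀Q, hq₀H, hq₀c⟩ := exists_central_mod hP Q H hQH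
  obtain ⟨K, hK⟩ : ∃ K : Subgroup P, ∀ a, a ∈ K ↔ ∀ x : P, ⁅a, x⁆ ∈ H :=
    ⟨{ carrier := {a | ∀ x : P, ⁅a, x⁆ ∈ H}
       mul_mem' := by
         intro a b ha hb x
         have e : ⁅a * b, x⁆ = a * ⁅b, x⁆ * a⁻¹ * ⁅a, x⁆ := by
           simp only [commutatorElement_def]; group
         rw [e]
         exact H.mul_mem (hHn _ (hb x) a) (ha x)
       one_mem' := by
         intro x
         rw [commutatorElement_one_left]
         exact H.one_mem
       inv_mem' := by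
         intro a ha x
         have e : ⁅a⁻¹, x⁆ = a⁻¹ * ⁅a, x⁆⁻¹ * a⁻¹⁻¹ := by
           simp only [commutatorElement_def]; group
         rw [e]
         exact hHn _ (H.inv_mem (ha x)) a⁻¹ }, fun a => Iff.rfl⟩
  obtain ⟨k₀, hk₀⟩ := hP q₀
  have hex : ∃ k : ℕ, q₀ ^ p ^ k ∈ H := ⟨k₀, by rw [hk₀]; exact H.one_mem⟩
  classical
  obtain ⟨k, hk, hkmin⟩ : ∃ k, q₀ ^ p ^ k ∈ H ∧ ∀ j < k, q₀ ^ p ^ j ∉ H :=
    ⟨Nat.find hex, Nat.find_spec hex, fun j hj => Nat.find_min hex hj⟩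
  have hk0 : k ≠ 0 := by
    rintro rfl
    rw [pow_zero, pow_one] at hk
    exact hq₀H hk
  obtain ⟨j, rfl⟩ := Nat.exists_eq_succ_of_ne_zero hk0
  obtain ⟨q, hq⟩ : ∃ q, q = q₀ ^ p ^ j := ⟨_, rfl⟩
  have hqH : q ∉ H := by rw [hq]; exact hkmin j (Nat.lt_succ_self j)
  have hqp : q ^ p ∈ H := by
    rw [hq, ← pow_mul, ← pow_succ]; exact hk
  have hqQ : q ∈ Q := by rw [hq]; exact Q.pow_mem hq₀Q _
  have hqK : q ∈ K := by rw [hq]; exact K.pow_mem ((hK q₀).mpr hq₀c) _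
  obtain ⟨hqR, hqC⟩ := (hQmem q).mp hqQ
  have hqCm : q ∈ C := (hC q).mpr ⟨hqR, fun h hh => hqC h (hHC hh), (hK q).mp hqK, hqp⟩
  obtain ⟨Z, hZ⟩ : ∃ Z : Subgroup P, Z = C ⊓ Subgroup.centralizer (C : Set P) := ⟨_, rfl⟩
  have hZmem : ∀ z, z ∈ Z ↔ z ∈ C ∧ ∀ c ∈ C, z * c = c * z := by
    intro z
    rw [hZ, Subgroup.mem_inf, Subgroup.mem_centralizer_iff]
    constructor
    · rintro ⟨h1, h2⟩; exact ⟨h1, fun c hc => (h2 c hc).symm⟩
    · rintro ⟨h1, h2⟩; exact ⟨h1, fun c hc => (h2 c hc).symm⟩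
  have hZH : Z = H := by
    apply hmax Z
    · intro α hα z hz
      obtain ⟨h1, h2⟩ := (hZmem z).mp hz
      refine (hZmem _).mpr ⟨hCinv α hα z h1, fun c hc => ?_⟩
      have h5 := h2 _ (hCinv _ (hinv α hα) c hc)
      have h6 := congrArg α h5
      rw [map_mul, map_mul, MulAut.apply_inv_self] at h6
      exact h6
    · intro z hz; exact hCR ((hZmem z).mp hz).1
    · intro a ha b hb
      exact ((hZmem a).mp ha).2 b ((hZmem b).mp hb).1
    · intro h hh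
      exact (hZmem h).mpr ⟨hHC hh, fun c hc => hHcent h hh c hc⟩
  have hqZ : q ∈ Z := (hZmem q).mpr ⟨hqCm, hqC⟩
  rw [hZH] at hqZ
  exact hqH hqZ

/-- The small-exponent subgroup. -/
theorem exists_small_exp [Finite P] {p : ℕ} [Fact p.Prime] (hP : IsPGroup p P)
    (G : Subgroup (MulAut P)) (hG : ∀ g : P, MulAut.conj g ∈ G)
    (R : Subgroup P) (hRinv : ∀ α ∈ G, ∀ x ∈ R, α x ∈ R)
    (hRres : ∀ α ∈ G, (orderOf α).Coprime p → ∀ x : P, x⁻¹ * α x ∈ R) :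
    ∃ D : Subgroup P,
      (∀ α ∈ G, ∀ d ∈ D, α d ∈ D) ∧ D ≤ R ∧
      (∀ d ∈ D, d ^ p = 1 ∨ (p = 2 ∧ d ^ 4 = 1)) ∧
      (∀ d ∈ D, ∀ x : P, ⁅d, x⁆ ∈ D ∧ ∀ d' ∈ D, ⁅d, x⁆ * d' = d' * ⁅d, x⁆) ∧
      (∀ α ∈ G, (orderOf α).Coprime p → (∀ d ∈ D, α d = d) → α = 1) := by
  obtain ⟨H, C, hHC, hCR, hHinv, hCinv, hHcent, hCcomm, hCpow, hself⟩ :=
    exists_critical_inv hP G hG R hRinv
  have hp := (Fact.out : p.Prime)
  obtain ⟨e, he⟩ : ∃ e : ℕ, e = if p = 2 then 4 else p := ⟨_, rfl⟩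
  have hpe : p ∣ e := by
    rw [he]; split_ifs with h
    · rw [h]; norm_num
    · exact dvd_rfl
  have hpc : p ∣ e.choose 2 := by
    rw [he]; split_ifs with h
    · rw [h]; decide
    · exact hp.dvd_choose_self (by norm_num) (lt_of_le_of_ne hp.two_le (Ne.symm h))
  have hzp : ∀ a ∈ C, ∀ b ∈ C, ⁅b, a⁆ ^ p = 1 := by
    intro a ha b hb
    have hz : ⁅b, a⁆ ∈ H := hCcomm b hb a
    rw [← comm_pow_left b a (hHcent _ hz b hb), commutatorElement_eq_one_iff_mul_comm]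
    exact hHcent _ (hCpow b hb) a ha
  have hmulpow : ∀ a ∈ C, ∀ b ∈ C, (a * b) ^ e = a ^ e * b ^ e := by
    intro a ha b hb
    have hz : b * a = ⁅b, a⁆ * a * b := by simp only [commutatorElement_def]; group
    have hzH : ⁅b, a⁆ ∈ H := hCcomm b hb a
    rw [mul_pow_class2 a b ⁅b, a⁆ hz (hHcent _ hzH a ha) (hHcent _ hzH b hb) e]
    obtain ⟨m, hm⟩ := hpc
    rw [hm, pow_mul, hzp a ha b hb, one_pow, mul_one]
  have hpowH : ∀ c ∈ C, c ^ e ∈ H := by
    intro c hc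
    obtain ⟨m, hm⟩ := hpe
    rw [hm, pow_mul]; exact H.pow_mem (hCpow c hc) m
  obtain ⟨D, hD⟩ : ∃ D : Subgroup P, ∀ d, d ∈ D ↔ d ∈ C ∧ d ^ e = 1 :=
    ⟨{ carrier := {d | d ∈ C ∧ d ^ e = 1}
       mul_mem' := by
         rintro a b ⟨ha, ha'⟩ ⟨hb, hb'⟩
         exact ⟨C.mul_mem ha hb, by rw [hmulpow a ha b hb, ha', hb', one_mul]⟩
       one_mem' := ⟨C.one_mem, one_pow _⟩
       inv_mem' := by
         rintro a ⟨ha, ha'⟩
         exact ⟨C.inv_mem ha, by rw [inv_pow, ha', inv_one]⟩ }, fun d => Iff.rfl⟩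
  have hDC : D ≤ C := fun d hd => ((hD d).mp hd).1
  have hDinv : ∀ α ∈ G, ∀ d ∈ D, α d ∈ D := by
    intro α hα d hd
    obtain ⟨h1, h2⟩ := (hD d).mp hd
    exact (hD _).mpr ⟨hCinv α hα d h1, by rw [← map_pow, h2, map_one]⟩
  refine ⟨D, hDinv, hDC.trans hCR, ?_, ?_, ?_⟩
  · intro d hd
    have h2 := ((hD d).mp hd).2
    rw [he] at h2
    split_ifs at h2 with h
    · exact Or.inr ⟨h, h2⟩
    · exact Or.inl h2
  · intro d hd x
    have h1 : ⁅d, x⁆ ∈ D := by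
      have e1 : ⁅d, x⁆ = d * (x * d⁻¹ * x⁻¹) := by simp only [commutatorElement_def]; group
      rw [e1]
      have h2 := hDinv _ (hG x) d⁻¹ (D.inv_mem hd)
      rw [MulAut.conj_apply] at h2
      exact D.mul_mem hd h2
    exact ⟨h1, fun d' hd' => hHcent _ (hCcomm d (hDC hd) x) d' (hDC hd')⟩
  · intro α hα hcop hfix
    have hfixH : ∀ k : ℕ, ∀ h ∈ H, h ^ p ^ k = 1 → α h = h := by
      intro k
      induction k with
      | zero =>
        intro h _ hh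
        rw [pow_zero, pow_one] at hh
        rw [hh, map_one]
      | succ k ih =>
        intro h hh hpow
        have h1 : α (h ^ p) = h ^ p :=
          ih _ (H.pow_mem hh p) (by rw [← pow_mul, ← pow_succ']; exact hpow)
        apply fix_of_coprime hP α hcop h
        apply hfix
        have hyH : h⁻¹ * α h ∈ H := H.mul_mem (H.inv_mem hh) (hHinv α hα h hh)
        refine (hD _).mpr ⟨hHC hyH, ?_⟩
        have hyp : (h⁻¹ * α h) ^ p = 1 := by
          have hc : Commute h⁻¹ (α h) :=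
            hHcent h⁻¹ (H.inv_mem hh) (α h) (hHC (hHinv α hα h hh))
          rw [hc.mul_pow, inv_pow, ← map_pow, h1, inv_mul_cancel]
        obtain ⟨m, hm⟩ := hpe
        rw [hm, pow_mul, hyp, one_pow]
    have hfixH' : ∀ h ∈ H, α h = h := fun h hh => by
      obtain ⟨k, hk⟩ := hP h
      exact hfixH k h hh hk
    have hfixC : ∀ c ∈ C, α c = c := by
      intro c hc
      apply fix_of_coprime hP α hcop c
      apply hfix
      have hαc : α c ∈ C := hCinv α hα c hc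
      refine (hD _).mpr ⟨C.mul_mem (C.inv_mem hc) hαc, ?_⟩
      rw [hmulpow _ (C.inv_mem hc) _ hαc, inv_pow, ← map_pow, hfixH' _ (hpowH c hc),
        inv_mul_cancel]
    have hfixR : ∀ r ∈ R, α r = r := by
      intro r hr
      apply fix_of_coprime hP α hcop r
      apply hfixH'
      apply hself _ (R.mul_mem (R.inv_mem hr) (hRinv α hα r hr))
      intro c hc
      have h1 : r * c * r⁻¹ ∈ C := by
        have h0 := hCinv _ (hG r) c hc
        rwa [MulAut.conj_apply] at h0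
      have h2 := hfixC _ h1
      rw [map_mul, map_mul, map_inv, hfixC c hc] at h2
      calc r⁻¹ * α r * c = r⁻¹ * (α r * c * (α r)⁻¹) * α r := by group
        _ = r⁻¹ * (r * c * r⁻¹) * α r := by rw [h2]
        _ = c * (r⁻¹ * α r) := by group
    apply MulEquiv.ext
    intro x
    rw [MulAut.one_apply]
    apply fix_of_coprime hP α hcop x
    exact hfixR _ (hRres α hα hcop x)

/-- Maximal abelian subgroups of `D` are normal and detect the `p'`-part of `G`. -/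
theorem max_abelian [Finite P] {p : ℕ} [Fact p.Prime] (hP : IsPGroup p P)
    (G : Subgroup (MulAut P)) (D : Subgroup P)
    (hDinv : ∀ α ∈ G, ∀ d ∈ D, α d ∈ D)
    (hDc : ∀ d ∈ D, ∀ x : P, ⁅d, x⁆ ∈ D ∧ ∀ d' ∈ D, ⁅d, x⁆ * d' = d' * ⁅d, x⁆)
    (hDf : ∀ α ∈ G, (orderOf α).Coprime p → (∀ d ∈ D, α d = d) → α = 1)
    (A : Subgroup P) (hAD : A ≤ D) (hAab : ∀ a ∈ A, ∀ b ∈ A, a * b = b * a)
    (hmax : ∀ B : Subgroup P, A ≤ B → B ≤ D → (∀ a ∈ B, ∀ b ∈ B, a * b = b * a) → B = A) :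
    A.Normal ∧ ∀ α ∈ G, (∀ a ∈ A, α a = a) → ∃ k : ℕ, orderOf α = p ^ k := by
  have hsc : ∀ d ∈ D, (∀ a ∈ A, d * a = a * d) → d ∈ A := by
    intro d hd hda
    obtain ⟨X, hX⟩ : ∃ X : Subgroup P,
        X = D ⊓ Subgroup.centralizer (A : Set P) ⊓ Subgroup.centralizer ({d} : Set P) :=
      ⟨_, rfl⟩
    have hXmem : ∀ x, x ∈ X ↔ x ∈ D ∧ (∀ a ∈ A, a * x = x * a) ∧ d * x = x * d := by
      intro x
      rw [hX, Subgroup.mem_inf, Subgroup.mem_inf, Subgroup.mem_centralizer_iff,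
        Subgroup.mem_centralizer_iff]
      simp only [Set.mem_singleton_iff, forall_eq, SetLike.mem_coe, and_assoc]
    obtain ⟨B, hB⟩ : ∃ B : Subgroup P, B = X ⊓ Subgroup.centralizer (X : Set P) := ⟨_, rfl⟩
    have hBmem : ∀ b, b ∈ B ↔ b ∈ X ∧ ∀ x ∈ X, x * b = b * x := by
      intro b
      rw [hB, Subgroup.mem_inf, Subgroup.mem_centralizer_iff]
      rfl
    have hBA : B = A := by
      apply hmax B
      · intro a ha
        refine (hBmem a).mpr ⟨(hXmem a).mpr ⟨hAD ha, fun a' ha' => hAab a' ha' a ha, hda a ha⟩,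
          fun x hx => ?_⟩
        exact (((hXmem x).mp hx).2.1 a ha).symm
      · intro b hb; exact ((hXmem b).mp ((hBmem b).mp hb).1).1
      · intro a ha b hb
        exact ((hBmem b).mp hb).2 a ((hBmem a).mp ha).1
    rw [← hBA]
    refine (hBmem d).mpr ⟨(hXmem d).mpr ⟨hd, fun a ha => (hda a ha).symm, rfl⟩, fun x hx => ?_⟩
    exact (((hXmem x).mp hx).2.2).symm
  have hAn : A.Normal := by
    refine ⟨fun a ha x => ?_⟩
    have e : x * a * x⁻¹ = ⁅a, x⁆⁻¹ * a := by simp only [commutatorElement_def]; group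
    rw [e]
    obtain ⟨h1, h2⟩ := hDc a (hAD ha) x
    exact A.mul_mem (A.inv_mem (hsc _ h1 (fun a' ha' => h2 a' (hAD ha')))) ha
  refine ⟨hAn, fun α hα hfix => ?_⟩
  have hp := (Fact.out : p.Prime)
  haveI : Finite (MulAut P) :=
    Finite.of_injective (fun e : MulAut P => (e : P → P)) DFunLike.coe_injective
  have hn0 : orderOf α ≠ 0 := (orderOf_pos α).ne'
  obtain ⟨k, m, hm, hnm⟩ := Nat.exists_eq_pow_mul_and_not_dvd hn0 p hp.ne_one
  have hβ : (α ^ p ^ k) ^ m = 1 := by rw [← pow_mul, ← hnm, pow_orderOf_eq_one]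
  have hcop : (orderOf (α ^ p ^ k)).Coprime p :=
    Nat.Coprime.coprime_dvd_left (orderOf_dvd_of_pow_eq_one hβ)
      ((Nat.Prime.coprime_iff_not_dvd hp).mpr hm).symm
  have hβfixA : ∀ a ∈ A, (α ^ p ^ k) a = a := by
    intro a ha
    have h0 : ∀ n : ℕ, (α ^ n) a = a := by
      intro n
      induction n with
      | zero => simp
      | succ n ih => rw [pow_succ', MulAut.mul_apply, ih, hfix a ha]
    exact h0 _
  have hβ1 : α ^ p ^ k = 1 := by
    apply hDf _ (G.pow_mem hα _) hcop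
    intro d hd
    apply fix_of_coprime hP _ hcop d
    apply hβfixA
    have hβd : (α ^ p ^ k) d ∈ D := hDinv _ (G.pow_mem hα _) d hd
    apply hsc _ (D.mul_mem (D.inv_mem hd) hβd)
    intro a ha
    have h1 : d * a * d⁻¹ ∈ A := hAn.conj_mem a ha d
    have h2 := hβfixA _ h1
    rw [map_mul, map_mul, map_inv, hβfixA a ha] at h2
    calc d⁻¹ * (α ^ p ^ k) d * a
        = d⁻¹ * ((α ^ p ^ k) d * a * ((α ^ p ^ k) d)⁻¹) * (α ^ p ^ k) d := by group
      _ = d⁻¹ * (d * a * d⁻¹) * (α ^ p ^ k) d := by rw [h2]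
      _ = a * (d⁻¹ * (α ^ p ^ k) d) := by group
  obtain ⟨j, -, hj⟩ := (Nat.dvd_prime_pow hp).mp (orderOf_dvd_of_pow_eq_one hβ1)
  exact ⟨j, hj⟩

end Cfsg.Agent.Lib.Helper12.SmallExp
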